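/-
Minimal degrees of orthogonal groups, part A: geometry relative to a non-degenerate subspace.
-/
import Cfsg.Agent.Classical.MinIdxO2
import Cfsg.Agent.Geom.EM

set_option autoImplicit false
set_option linter.unusedSectionVars false

namespace CF.OmDeg

open Module CF.Geom CF.Classical QuadraticMap

variable {F W : Type*} [Field F] [AddCommGroup W] [Module F W] {Q : QuadraticForm F W}
  {Z : Submodule F W}

local notation "𝐁" => polarBilin Q

theorem mem_p1 {e v : W} : v ∈ perp 𝐁 (Z ⊔ F ∙ e) ↔ v ∈ perp 𝐁 Z ∧ polar Q e v = 0 := by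
  rw [perp_sup, Submodule.mem_inf, mem_perp_singleton]; rfl

theorem mem_p2 {e f v : W} : v ∈ perp 𝐁 (Z ⊔ Submodule.span F {e, f}) ↔
    v ∈ perp 𝐁 Z ∧ polar Q e v = 0 ∧ polar Q f v = 0 := by
  rw [perp_sup, Submodule.mem_inf, mem_perp_pair]; rfl

theorem pz {v z : W} (hv : v ∈ perp 𝐁 Z) (hz : z ∈ Z) : polar Q v z = 0 := by
  rw [polar_comm]; exact mem_perp.1 hv z hz

/-- The elements of `Ω` fixing `Z`. -/
abbrev GZ (Q : QuadraticForm F W) (Z : Submodule F W) : Subgroup (W ≃ₗ[F] W) := fixSub (OmG Q) Z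

theorem GZ_og {g : W ≃ₗ[F] W} (hg : g ∈ GZ Q Z) : g ∈ OG Q := OmG_le hg.1

theorem GZ_perp {g : W ≃ₗ[F] W} (hg : g ∈ GZ Q Z) {v : W} (hv : v ∈ perp 𝐁 Z) :
    g v ∈ perp 𝐁 Z := mem_perp.2 fun z hz => by
  rw [polarBilin_eq, ← hg.2 z hz, polar_map (GZ_og hg)]; exact mem_perp.1 hv z hz

theorem GZ_anti {Z' : Submodule F W} (h : Z ≤ Z') : GZ Q Z' ≤ GZ Q Z :=
  fun _ hg => ⟨hg.1, fun z hz => hg.2 z (h hz)⟩

theorem mem_G2 {e f : W} {g : W ≃ₗ[F] W} : g ∈ GZ Q (Z ⊔ Submodule.span F {e, f}) ↔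
    g ∈ GZ Q Z ∧ g e = e ∧ g f = f := by
  rw [Submodule.span_insert, ← sup_assoc, GZ, mem_fixSub_sup_singleton, mem_fixSub_sup_singleton,
    and_assoc]

/-- A hyperbolic pair orthogonal to `Z`. -/
structure HZ (Q : QuadraticForm F W) (Z : Submodule F W) (e f : W) : Prop extends HP Q e f where
  ez : e ∈ perp (polarBilin Q) Z
  fz : f ∈ perp (polarBilin Q) Z

namespace HZ

variable {e f : W}

theorem symm (h : HZ Q Z e f) : HZ Q Z f e := ⟨h.toHP.symm, h.fz, h.ez⟩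

theorem sub_mem (h : HZ Q Z e f) {v : W} (hv : v ∈ perp 𝐁 Z) :
    v - polar Q f v • e - polar Q e v • f ∈ perp 𝐁 (Z ⊔ Submodule.span F {e, f}) :=
  mem_p2.2 ⟨Submodule.sub_mem _ (Submodule.sub_mem _ hv (Submodule.smul_mem _ _ h.ez))
    (Submodule.smul_mem _ _ h.fz), by simp [h.ee, h.hef], by simp [h.ff, h.hfe]⟩

theorem notMem (h : HZ Q Z e f) {v : W} (hv : v ∈ perp 𝐁 (Z ⊔ Submodule.span F {e, f}))
    (h0 : v ≠ 0) : v ∉ F ∙ e := fun h1 => by
  obtain ⟨c, rfl⟩ := Submodule.mem_span_singleton.1 h1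
  have := (mem_p2.1 hv).2.2
  rw [polar_smul_right, h.hfe, smul_eq_mul, mul_one] at this
  exact h0 (by rw [this, zero_smul])

theorem nd (h : HZ Q Z e f) (hQ : LinearMap.Nondegenerate 𝐁) (hZ : ND 𝐁 Z) :
    ND 𝐁 (Z ⊔ Submodule.span F {e, f}) :=
  hZ.sup_pair (isWittPair_quad Q hQ) h.ez h.fz h.ee (by rw [polarBilin_eq, h.hef]; exact one_ne_zero)

theorem finrank [FiniteDimensional F W] (h : HZ Q Z e f) (hQ : LinearMap.Nondegenerate 𝐁) :
    finrank F (perp 𝐁 Z) = finrank F (perp 𝐁 (Z ⊔ Submodule.span F {e, f})) + 2 :=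
  (isWittPair_quad Q hQ).finrank_perp_hyp (h.he.trans (map_zero Q).symm)
    (h.hf.trans (map_zero Q).symm) h.hef h.ez h.fz

theorem cnt [Finite F] [FiniteDimensional F W] (h : HZ Q Z e f) (hQ : LinearMap.Nondegenerate 𝐁)
    (r : W) : cnt 𝐁 Q Z r = Nat.card F * cnt 𝐁 Q (Z ⊔ Submodule.span F {e, f}) r +
      (Nat.card F - 1) * Nat.card F ^ Module.finrank F (perp 𝐁 (Z ⊔ Submodule.span F {e, f})) := by
  rw [(isWittPair_quad Q hQ).cnt_hyp (slideCard_quad Q) (h.he.trans (map_zero Q).symm)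
    (h.hf.trans (map_zero Q).symm) h.hef h.ez h.fz, mul_one]

end HZ

variable [FiniteDimensional F W]

theorem exists_HZ (hQ : LinearMap.Nondegenerate 𝐁) {e : W} (he : Q e = 0) (h1 : e ∉ Z)
    (h2 : e ∈ perp 𝐁 Z) : ∃ f, HZ Q Z e f := by
  obtain ⟨f, h3, h4, h5⟩ := (isWittPair_quad Q hQ).exists_partner h1 (he.trans (map_zero Q).symm)
    (mem_perp.1 h2)
  exact ⟨f, ⟨he, h3.trans (map_zero Q), h4⟩, h2, mem_perp.2 h5⟩

theorem notMem_sup (hZ : ND 𝐁 Z) {S : Submodule F W} (hS : S ≤ perp 𝐁 Z) {x : W}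
    (hx : x ∈ perp 𝐁 Z) (h : x ∉ S) : x ∉ Z ⊔ S := fun h1 => by
  obtain ⟨z, hz, s, hs, rfl⟩ := Submodule.mem_sup.1 h1
  have : z = 0 := Submodule.disjoint_def.1 hZ z hz (by simpa using sub_mem hx (hS hs))
  exact h (by simpa [this] using hs)

/-- A partner of `e` orthogonal to `Z` and to `l`. -/
theorem exists_HZ' (hQ : LinearMap.Nondegenerate 𝐁) (hZ : ND 𝐁 Z) {e l : W} (he : Q e = 0)
    (h0 : e ≠ 0) (h2 : e ∈ perp 𝐁 Z) (hl : l ∈ perp 𝐁 Z) (hel : polar Q e l = 0)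
    (h3 : l ∉ F ∙ e) : ∃ f, HZ Q Z e f ∧ polar Q f l = 0 := by
  obtain ⟨f, h⟩ := exists_HZ (Z := Z ⊔ F ∙ l) hQ he (notMem_sup hZ
    ((Submodule.span_singleton_le_iff_mem _ _).2 hl) h2 fun h => by
      obtain ⟨c, rfl⟩ := Submodule.mem_span_singleton.1 h
      refine h3 (Submodule.mem_span_singleton.2 ⟨c⁻¹, ?_⟩)
      rw [smul_smul, inv_mul_cancel₀ (fun e => h0 (by simp [e])), one_smul])
    (mem_p1.2 ⟨h2, by rwa [polar_comm]⟩)
  exact ⟨f, ⟨h.toHP, h2, (mem_p1.1 h.fz).1⟩, by rw [polar_comm]; exact (mem_p1.1 h.fz).2⟩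

theorem exists_dual (hQ : LinearMap.Nondegenerate 𝐁) (hZ : ND 𝐁 Z) {S : Submodule F W}
    (hS : S ≤ perp 𝐁 Z) {x : W} (hx : x ∈ perp 𝐁 Z) (h : x ∉ S) (c : F) :
    ∃ y ∈ perp 𝐁 Z, polar Q x y = c ∧ ∀ s ∈ S, polar Q s y = 0 := by
  obtain ⟨y, h1, h2⟩ := (isWittPair_quad Q hQ).exists_dual_vec (notMem_sup hZ hS hx h)
  refine ⟨c • y, Submodule.smul_mem _ _ (mem_perp.2 fun z hz => h2 z (Submodule.mem_sup_left hz)),
    by rw [polar_smul_right, ← polarBilin_eq, h1, smul_eq_mul, mul_one], fun s hs => ?_⟩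
  rw [polar_smul_right, ← polarBilin_eq, h2 s (Submodule.mem_sup_right hs), smul_zero]

theorem exists_dual1 (hQ : LinearMap.Nondegenerate 𝐁) (hZ : ND 𝐁 Z) {m x : W} (hm : m ∈ perp 𝐁 Z)
    (hx : x ∈ perp 𝐁 Z) (h : x ∉ F ∙ m) (c : F) :
    ∃ y ∈ perp 𝐁 Z, polar Q x y = c ∧ polar Q m y = 0 := by
  obtain ⟨y, h1, h2, h3⟩ := exists_dual hQ hZ ((Submodule.span_singleton_le_iff_mem _ _).2 hm) hx h c
  exact ⟨y, h1, h2, h3 _ (Submodule.mem_span_singleton_self m)⟩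

theorem mem_of_perp1 (hQ : LinearMap.Nondegenerate 𝐁) (hZ : ND 𝐁 Z) {m x : W} (hm : m ∈ perp 𝐁 Z)
    (hx : x ∈ perp 𝐁 Z) (h : ∀ y ∈ perp 𝐁 Z, polar Q m y = 0 → polar Q x y = 0) : x ∈ F ∙ m := by
  by_contra h1
  obtain ⟨y, h2, h3, h4⟩ := exists_dual1 hQ hZ hm hx h1 1
  exact one_ne_zero (h3.symm.trans (h y h2 h4))

theorem eq_zero_of_perp (hQ : LinearMap.Nondegenerate 𝐁) (hZ : ND 𝐁 Z) {x : W}
    (hx : x ∈ perp 𝐁 Z) (h : ∀ y ∈ perp 𝐁 Z, polar Q x y = 0) : x = 0 :=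
  hZ.eq_zero (isWittPair_quad Q hQ) hx h

theorem eic_GZ (hQ : LinearMap.Nondegenerate 𝐁) (h5 : 5 ≤ finrank F W) {u w : W}
    (hu : u ∈ perp 𝐁 Z) (hw : w ∈ perp 𝐁 Z) : eic Q u w ∈ GZ Q Z := by
  refine ⟨eic_mem hQ h5 u w, fun z hz => ?_⟩
  by_cases h : Q u = 0 ∧ polar Q u w = 0
  · exact eic_fix h.1 h.2 (pz hu hz) (pz hw hz)
  · simp [eic, h]

theorem ext_of_perp (hQ : LinearMap.Nondegenerate 𝐁) (hZ : ND 𝐁 Z) {g g' : W ≃ₗ[F] W}
    (h1 : ∀ z ∈ Z, g z = g' z) (h2 : ∀ x ∈ perp 𝐁 Z, g x = g' x) : g = g' :=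
  LinearEquiv.ext fun v => by
    obtain ⟨x, hx, e⟩ := (isWittPair_quad Q hQ).exists_comp hZ v
    rw [show v = x + (v - x) by abel, map_add, map_add, h1 x hx, h2 _ e]

theorem nd_perp (hQ : LinearMap.Nondegenerate 𝐁) (hZ : ND 𝐁 Z) :
    (polarBilin (Q.comp (perp 𝐁 Z).subtype)).Nondegenerate :=
  nondegenerate_comp_subtype ((isWittPair_quad Q hQ).disjoint_perp_perp hZ)

theorem exists_ext (hQ : LinearMap.Nondegenerate 𝐁) (hZ : ND 𝐁 Z) :
    ∃ φ : OG (Q.comp (perp 𝐁 Z).subtype) →* OG Q,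
      (∀ g (x : perp 𝐁 Z), (φ g).1 x = g.1 x) ∧ ∀ g, ∀ z ∈ Z, (φ g).1 z = z := by
  have hc := ((isWittPair_quad Q hQ).isCompl_perp hZ).symm
  have h := orthDecomp_quad (Q := Q) (Q₁ := Q.comp (perp 𝐁 Z).subtype) (Q₂ := Q.comp Z.subtype)
    (e := Submodule.prodEquivOfIsCompl _ _ hc) fun x y => by
      simp [quad_add, pz x.2 y.2]
  refine ⟨h.hom.comp (MonoidHom.inl _ _), fun g x => ?_, fun g z hz => ?_⟩
  · simpa using h.hom_apply (g, 1) x 0
  · simpa using h.hom_apply (g, 1) 0 ⟨z, hz⟩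

theorem map_commutator_mem {G H : Type*} [Group G] [Group H] (φ : G →* H) {g : G}
    (hg : g ∈ commutator G) : φ g ∈ commutator H := by
  have : (commutator G).map φ ≤ commutator H := by
    rw [commutator_def, Subgroup.map_commutator]
    exact Subgroup.commutator_mono le_top le_top
  exact this ⟨g, hg, rfl⟩

variable [Finite F]

/-- `GZ` is generated by Eichler transformations. -/
theorem GZ_le (hQ : LinearMap.Nondegenerate 𝐁) (h5 : 5 ≤ finrank F W) (hZ : ND 𝐁 Z)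
    (h3 : 3 ≤ finrank F (perp 𝐁 Z)) (T : Subgroup (W ≃ₗ[F] W))
    (hT : ∀ u ∈ perp 𝐁 Z, ∀ w ∈ perp 𝐁 Z, u ≠ 0 → Q u = 0 → polar Q u w = 0 → eic Q u w ∈ T) :
    GZ Q Z ≤ T := by
  obtain ⟨φ, h1, h2⟩ := exists_ext hQ hZ
  have hQ' := nd_perp hQ hZ
  have he : ∀ (u w : perp 𝐁 Z) (hu : Q.comp (perp 𝐁 Z).subtype u = 0)
      (hw : polar (Q.comp (perp 𝐁 Z).subtype) u w = 0), (φ (eichler hu hw)).1 = eic Q u w :=
    fun u w hu hw => ext_of_perp hQ hZ
      (fun z hz => by rw [h2 _ z hz, (eic_GZ hQ h5 u.2 w.2).2 z hz]) fun x hx => by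
        rw [h1 _ ⟨x, hx⟩, eichler_apply, eic_apply (Q := Q) (u := u.1) hu hw]; rfl
  have hr : ∀ v : perp 𝐁 Z, φ (oRefl _ v) = oRefl Q v := fun v => Subtype.ext <| ext_of_perp hQ hZ
    (fun z hz => by rw [h2 _ z hz, oRefl_of_polar_eq_zero (pz v.2 hz)]) fun x hx => by
      rw [h1 _ ⟨x, hx⟩, oRefl_apply, oRefl_apply]; rfl
  have hE : ∀ t ∈ eichlerSub (Q.comp (perp 𝐁 Z).subtype), (φ t).1 ∈ T ⊓ OmG Q := fun t ht => by
    refine (Subgroup.closure_le (K := (T ⊓ OmG Q).comap ((OG Q).subtype.comp φ))).2 ?_ ht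
    rintro _ ⟨u, w, hu, hw, rfl⟩
    change (φ _).1 ∈ T ⊓ OmG Q
    rw [he]
    refine ⟨?_, eic_mem hQ h5 _ _⟩
    by_cases h0 : (u : W) = 0
    · rw [h0, eic_eq (map_zero Q) (by simp), eichler_zero_left]; exact one_mem T
    · exact hT _ u.2 _ w.2 h0 hu hw
  intro g hg
  let g' : OG (Q.comp (perp 𝐁 Z).subtype) := ⟨LinearEquiv.ofInjectiveEndo
    ((g : W →ₗ[F] W).restrict fun _ => GZ_perp hg) fun x y e =>
      Subtype.ext (g.injective (congrArg Subtype.val e)), mem_OG.2 fun v => quad_map (GZ_og hg) v⟩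
  have e : (φ g').1 = g := ext_of_perp hQ hZ (fun z hz => by rw [h2 _ z hz, hg.2 z hz])
    fun x hx => h1 _ ⟨x, hx⟩
  obtain ⟨r, hr', t, ht, e'⟩ := Subgroup.mem_sup_of_normal_right.1
    ((reflSub_sup_eichlerSub hQ').ge (Subgroup.mem_top g'))
  obtain ⟨vs, hvs, rfl⟩ := mem_reflSub_iff.1 hr'
  have e2 : φ (vs.map (oRefl _)).prod = ((vs.map Subtype.val).map (oRefl Q)).prod := by
    rw [map_list_prod, List.map_map, List.map_map]; exact congrArg _ (List.map_congr_left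
      fun v _ => hr v)
  have h4 : (φ (vs.map (oRefl _)).prod).1 ∈ OmG Q := by
    have := mul_mem hg.1 (inv_mem (hE t ht).2)
    rwa [← e, ← e', map_mul, Subgroup.coe_mul, mul_inv_cancel_right] at this
  rw [mem_OmG, e2, prod_oRefl_mem_commutator_iff hQ (reflSub_eq_top hQ (Or.inr (by omega))) _
    (by simpa using hvs), List.length_map, List.map_map] at h4
  obtain ⟨a, ha0, ha⟩ := exists_singular_of_three_le (Q.comp (perp 𝐁 Z).subtype) h3
  have h6 := commutator_le_eichlerSub hQ' h3 ha0 ha (prod_oRefl_mem_commutator hQ' vs hvs h4.1 h4.2)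
  rw [← e, ← e']
  exact (hE _ (mul_mem h6 ht)).1

theorem exists_frame (hQ : LinearMap.Nondegenerate 𝐁) (h5 : 5 ≤ finrank F W) (hZ : ND 𝐁 Z)
    {ι : Type*} (x y : ι → W) (hx : LinearIndependent F x) (hy : LinearIndependent F y)
    (hx' : ∀ i, x i ∈ perp 𝐁 Z) (hy' : ∀ i, y i ∈ perp 𝐁 Z)
    (hB : ∀ i j, polar Q (y i) (y j) = polar Q (x i) (x j)) (hq : ∀ i, Q (y i) = Q (x i))
    {Z' : Submodule F W} (h1 : Z ≤ Z') (h2 : ND 𝐁 Z') (h3 : ∀ i, y i ∈ Z')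
    (h4 : 2 ≤ finrank F (perp 𝐁 Z')) : ∃ g ∈ GZ Q Z, ∀ i, g (x i) = y i := by
  obtain ⟨b, hb, hb1, hb2⟩ := exists_li_mem Z rfl
  obtain ⟨g, hg, e⟩ := exists_omega_frame hQ h5 (Sum.elim b x) (Sum.elim b y)
    (li_sum_of_disjoint hb hx hb1 hx' hZ) (li_sum_of_disjoint hb hy hb1 hy' hZ)
    (by
      rintro (i | i) (j | j)
      · rfl
      · exact (mem_perp.1 (hy' j) _ (hb1 i)).trans (mem_perp.1 (hx' j) _ (hb1 i)).symm
      · exact (pz (hy' i) (hb1 j)).trans (pz (hx' i) (hb1 j)).symm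
      · exact hB i j)
    (by rintro (i | i); exacts [rfl, hq i]) fun c hc => by
      obtain ⟨w, hw, e⟩ := exists_quad_eq_mem ((isWittPair_quad Q hQ).disjoint_perp_perp h2) h4 hc
      exact ⟨w, e, by rintro (i | i); exacts [pz hw (h1 (hb1 i)), pz hw (h3 i)]⟩
  refine ⟨g, ⟨hg, fun z hz => ?_⟩, fun i => e (.inr i)⟩
  rw [← hb2] at hz
  exact LinearMap.eqOn_span' (f := (g : W →ₗ[F] W)) (g := LinearMap.id)
    (by rintro _ ⟨i, rfl⟩; exact e (.inl i)) hz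

/-- Transitivity on pairs (singular vector, vector orthogonal to it). -/
theorem exists_pair (hQ : LinearMap.Nondegenerate 𝐁) (h5 : 5 ≤ finrank F W) (hZ : ND 𝐁 Z)
    (h6 : 6 ≤ finrank F (perp 𝐁 Z)) {e l e' l' : W} (he : Q e = 0) (he' : Q e' = 0) (h0 : e ≠ 0)
    (h0' : e' ≠ 0) (h1 : e ∈ perp 𝐁 Z) (h1' : e' ∈ perp 𝐁 Z) (h2 : l ∈ perp 𝐁 Z)
    (h2' : l' ∈ perp 𝐁 Z) (h3 : polar Q e l = 0) (h3' : polar Q e' l' = 0) (h4 : l ∉ F ∙ e)
    (h4' : l' ∉ F ∙ e') (hq : Q l' = Q l) : ∃ g ∈ GZ Q Z, g e = e' ∧ g l = l' := by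
  obtain ⟨f, hf, hfl⟩ := exists_HZ' hQ hZ he' h0' h1' h2' h3' h4'
  obtain ⟨Z', a1, a2, a3, a4⟩ := (hf.nd hQ hZ).exists_ext (isWittPair_quad Q hQ)
    (mem_p2.2 ⟨h2', h3', hfl⟩)
  obtain ⟨g, hg, e⟩ := exists_frame hQ h5 hZ ![e, l] ![e', l']
    (linearIndependent_pair_of_notMem h0 h4) (linearIndependent_pair_of_notMem h0' h4')
    (fun i => by fin_cases i <;> assumption) (fun i => by fin_cases i <;> assumption)
    (fun i j => by
      fin_cases i <;> fin_cases j <;>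
        simp [he, he', h3, h3', polar_comm Q l, polar_comm Q l', polar_self', hq])
    (fun i => by fin_cases i <;> simp [he, he', hq]) (le_sup_left.trans a1) a3
    (fun i => by
      fin_cases i
      exacts [a1 (Submodule.mem_sup_right (Submodule.subset_span (by simp))), a2])
    (by have := hf.finrank hQ; omega)
  exact ⟨g, hg, e 0, e 1⟩

theorem exists_tor (hQ : LinearMap.Nondegenerate 𝐁) {m m' : W} (h : HP Q m m') {a : F}
    (ha : a ≠ 0) : ∃ k ∈ OmG Q, k m = a ^ 2 • m ∧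
      ∀ x, polar Q m x = 0 → polar Q m' x = 0 → k x = x := by
  obtain ⟨k, h1, h2, h3⟩ := exists_scale hQ (h.nd hQ) (Submodule.subset_span (by simp)) h.ne_zero h.he
    ha
  exact ⟨k, h1, h3, fun x a b => h2.2 x (mem_perp_pair.2 ⟨a, b⟩)⟩

/-- A vector with few translates under pairs of reflections is orthogonal to the space. -/
theorem perp_of_refl (hQ : LinearMap.Nondegenerate 𝐁) {X : Submodule F W} (hX : ND 𝐁 X)
    (hd : 3 ≤ finrank F X ∨ (2 ≤ finrank F X ∧ ∀ x ∈ X, Q x = 0 → x = 0)) {n : W}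
    (H : ∀ y ∈ X, ∀ y' ∈ X, Q y ≠ 0 → Q y' = Q y → polar Q y n • y = polar Q y' n • y') :
    ∀ x ∈ X, polar Q x n = 0 := by
  have hW := isWittPair_quad Q hQ
  have hp : perp 𝐁 (perp 𝐁 X) = X := hW.perp_perp X
  have hn : ND 𝐁 (perp 𝐁 X) := hW.disjoint_perp_perp hX
  have key : ∀ y ∈ X, Q y ≠ 0 → polar Q y n = 0 := fun y hy qy => by
    by_contra h0
    have y0 : y ≠ 0 := fun e => qy (by simp [e])
    have k1 : ∀ y' ∈ X, Q y' = Q y → y' ∈ F ∙ y := fun y' hy' e => by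
      have h1 := H y hy y' hy' qy e
      have h2 : polar Q y' n ≠ 0 := fun e' => by
        rw [e', zero_smul] at h1; exact smul_ne_zero h0 y0 h1
      exact Submodule.mem_span_singleton.2 ⟨(polar Q y' n)⁻¹ * polar Q y n, by
        rw [mul_smul, h1, smul_smul, inv_mul_cancel₀ h2, one_smul]⟩
    have k2 : ∀ a ∈ F ∙ y, Q a = 0 → a = 0 := fun a ha qa => by
      obtain ⟨c, rfl⟩ := Submodule.mem_span_singleton.1 ha
      rw [quad_smul, mul_eq_zero, pow_eq_zero_iff two_ne_zero] at qa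
      rw [qa.resolve_right qy, zero_smul]
    rcases hd with h3 | ⟨h2, ha⟩
    · obtain ⟨a, ha, a0, qa⟩ := exists_singular_mem Q h3
      by_cases hay : polar Q y a = 0
      · exact a0 (k2 a (by simpa using sub_mem (k1 _ (add_mem hy ha) (by
          rw [quad_add, qa, hay, add_zero, add_zero])) (Submodule.mem_span_singleton_self y)) qa)
      obtain ⟨b, hb, hb'⟩ := exists_notMem_of_lt (Y := F ∙ a) (A := X ⊓ perp 𝐁 (F ∙ a)) (by
        have := finrank_inf_perp_single hW X a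
        rw [finrank_span_singleton a0]; omega)
      have hab : polar Q a b = 0 := mem_perp_singleton.1 hb.2
      have h1 := k1 (eic Q a b y) (by
        rw [eic_apply qa hab]
        exact sub_mem (sub_mem (add_mem hy (X.smul_mem _ hb.1)) (X.smul_mem _ ha)) (X.smul_mem _ ha))
        (quad_map (eic_mem_OG a b) y)
      obtain ⟨c, hc⟩ := Submodule.mem_span_singleton.1 h1
      have h4 := congrArg (polar Q a) hc
      rw [eic_apply qa hab] at hc h4
      simp only [polar_smul_right, polar_add_right, polar_sub_right, hab, polar_self', qa,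
        smul_eq_mul, mul_zero, add_zero, sub_zero] at h4
      rw [polar_comm] at hay
      rw [show c = 1 from mul_right_cancel₀ hay (h4.trans (one_mul _).symm), one_smul] at hc
      refine hb' (Submodule.mem_span_singleton.2
        ⟨(polar Q a y)⁻¹ * (polar Q b y + Q b * polar Q a y), ?_⟩)
      rw [mul_smul, inv_smul_eq_iff₀ hay]
      linear_combination (norm := module) hc
    · obtain ⟨z, hz, hz1, hz2⟩ : ∃ z ∈ X, z ∉ F ∙ y ∧ polar Q z y ≠ 0 := by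
        obtain ⟨z, hz, hz'⟩ := exists_notMem_of_lt (Y := F ∙ y) (A := X) (by
          rw [finrank_span_singleton y0]; omega)
        obtain ⟨w, hw, hw1⟩ : ∃ w ∈ X, polar Q w y ≠ 0 := by
          by_contra! hc
          exact y0 (Submodule.disjoint_def.1 hX y hy (mem_perp.2 hc))
        by_cases h1 : polar Q z y = 0
        · by_cases h3 : w ∈ F ∙ y
          · exact ⟨z + w, add_mem hz hw, fun h => hz' (by simpa using sub_mem h h3),
              by simpa [h1] using hw1⟩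
          · exact ⟨w, hw, h3, hw1⟩
        · exact ⟨z, hz, hz', h1⟩
      have qz : Q z ≠ 0 := fun e => hz1 (by rw [ha z hz e]; exact zero_mem _)
      have h1 := k1 ((oRefl Q z).1 y) (by rw [oRefl_apply]; exact sub_mem hy (X.smul_mem _ hz))
        (OG_map _ y)
      rw [oRefl_apply, Submodule.sub_mem_iff_right _ (Submodule.mem_span_singleton_self y),
        Submodule.smul_mem_iff _ (mul_ne_zero (inv_ne_zero qz) hz2)] at h1
      exact hz1 h1
  intro a ha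
  by_contra h0
  have qa : ∀ k ∈ X, polar Q k n = 0 → Q k = -polar Q a k := fun k hk hk' => by
    have h1 : Q a = 0 := by_contra fun e => h0 (key a ha e)
    have h2 : Q (a + k) = 0 := by_contra fun e => h0 (by
      simpa [hk'] using key _ (add_mem ha hk) e)
    rw [quad_add, h1] at h2; linear_combination h2
  rcases hd with h3 | ⟨-, h2⟩
  · have h1 := finrank_inf_perp_single hW X n
    have h4 : X ⊓ perp 𝐁 (F ∙ n) ≤ perp 𝐁 (X ⊓ perp 𝐁 (F ∙ n)) := fun k hk =>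
      mem_perp.2 fun k' hk' => by
        have b : ∀ k ∈ X ⊓ perp 𝐁 (F ∙ n), Q k = -polar Q a k := fun k hk =>
          qa k hk.1 (by rw [polar_comm]; exact mem_perp_singleton.1 hk.2)
        have := b _ (add_mem hk' hk)
        rw [quad_add, b k hk, b k' hk', polar_add_right] at this
        rw [polarBilin_eq]; linear_combination this
    have h5 := hn.finrank_rel hW (Y := X ⊓ perp 𝐁 (F ∙ n)) (by rw [hp]; exact inf_le_left)
    rw [hp] at h5
    have h6 := Submodule.finrank_mono (le_inf inf_le_left h4)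
    omega
  · exact h0 (by rw [h2 a ha (by_contra fun e => h0 (key a ha e))]; simp)

end CF.OmDeg
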