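/-
Minimal degrees of orthogonal groups, part B: weights of the radicals of point stabilisers.
-/
import Cfsg.Agent.OmDeg.A
import Cfsg.Agent.Classical.Weil

set_option autoImplicit false
set_option linter.unusedSectionVars false

namespace CF.OmDeg

open Module CF.Geom CF.Classical QuadraticMap

variable {F W V : Type*} [Field F] [Finite F] [AddCommGroup W] [Module F W] [FiniteDimensional F W]
  [NormedAddCommGroup V] [InnerProductSpace ℂ V] [FiniteDimensional ℂ V]
  {Q : QuadraticForm F W} {Z A A' : Submodule F W} {R : (W ≃ₗ[F] W) → End ℂ V}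
  {e l l' : W} {g : W ≃ₗ[F] W} {x y : V}

local notation "𝐁" => polarBilin Q

/-- A unitary representation of `Ω`. -/
structure ORep (Q : QuadraticForm F W) (R : (W ≃ₗ[F] W) → End ℂ V) : Prop where
  nd : LinearMap.Nondegenerate (polarBilin Q)
  h5 : 5 ≤ finrank F W
  one : R 1 = 1
  mul : ∀ g ∈ OmG Q, ∀ h ∈ OmG Q, R (g * h) = R g * R h
  uni : ∀ g ∈ OmG Q, ∀ v w, inner ℂ (R g v) (R g w) = inner ℂ v w

/-- Weight spaces. -/
def wt (Q : QuadraticForm F W) (R : (W ≃ₗ[F] W) → End ℂ V) (e : W) (A : Submodule F W) (l : W) :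
    Submodule ℂ V where
  carrier := {v | ∀ u ∈ A, R (eic Q e u) v = psiF F (polar Q l u) • v}
  add_mem' := fun {a b} ha hb u hu => by rw [map_add, ha u hu, hb u hu, smul_add]
  zero_mem' := fun u _ => by simp
  smul_mem' := fun c a ha u hu => by rw [map_smul, ha u hu, smul_comm]

theorem mem_wt : x ∈ wt Q R e A l ↔ ∀ u ∈ A, R (eic Q e u) x = psiF F (polar Q l u) • x := Iff.rfl

theorem mem_wt0 : x ∈ wt Q R e A 0 ↔ ∀ u ∈ A, R (eic Q e u) x = x := by simp [mem_wt]

theorem wt_anti (h : A ≤ A') : wt Q R e A' l ≤ wt Q R e A l := fun _ hx u hu => hx u (h hu)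

theorem wt_congr (h : ∀ u ∈ A, polar Q l u = polar Q l' u) (hx : x ∈ wt Q R e A l) :
    x ∈ wt Q R e A l' := fun u hu => by rw [← h u hu]; exact hx u hu

theorem wt_smul (he : Q e = 0) (hA : ∀ u ∈ A, polar Q e u = 0) {a : F} (ha : a ≠ 0)
    (hx : x ∈ wt Q R (a • e) A (a • l)) : x ∈ wt Q R e A l := fun u hu => by
  have := hx _ (A.smul_mem a⁻¹ hu)
  rwa [eic_smul he (by simp [hA u hu]), smul_inv_smul₀ ha, polar_smul_left, polar_smul_right,
    smul_inv_smul₀ ha] at this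

theorem psi_eq {a b : F} (h : ∀ s, psiF F (s * a) = psiF F (s * b)) : a = b :=
  eq_of_psi_mul _ psiF_ne_one h

theorem wt_unique (h0 : x ≠ 0) (hx : x ∈ wt Q R e A l) (hx' : x ∈ wt Q R e A l') {u : W}
    (hu : u ∈ A) : polar Q l u = polar Q l' u := psi_eq fun s => eq_of_smul_eq h0 (by
  simpa using (hx _ (A.smul_mem s hu)).symm.trans (hx' _ (A.smul_mem s hu)))

open _root_.Classical in
/-- The projection on the fixed space. -/
noncomputable def av (Q : QuadraticForm F W) (R : (W ≃ₗ[F] W) → End ℂ V) (e : W)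
    (A : Submodule F W) : End ℂ V := (Nat.card A : ℂ)⁻¹ • ∑ᶠ u : A, R (eic Q e u)

/-- The fixed space of a set of group elements. -/
def fx (R : (W ≃ₗ[F] W) → End ℂ V) (H : Subgroup (W ≃ₗ[F] W)) : Submodule ℂ V where
  carrier := {v | ∀ g ∈ H, R g v = v}
  add_mem' := fun {a b} ha hb u hu => by rw [map_add, ha u hu, hb u hu]
  zero_mem' := fun u _ => by simp
  smul_mem' := fun c a ha u hu => by rw [map_smul, ha u hu]

/-- The sum over a subgroup. -/
noncomputable def sm (R : (W ≃ₗ[F] W) → End ℂ V) (H : Subgroup (W ≃ₗ[F] W)) : End ℂ V :=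
  ∑ᶠ h : H, R h

include F in
theorem finW : Finite W := Module.finite_of_finite F

theorem finE : Finite (W ≃ₗ[F] W) :=
  have := finW (F := F) (W := W)
  Finite.of_injective _ (DFunLike.coe_injective (F := W ≃ₗ[F] W))

theorem av_def [Fintype A] (v : V) :
    av Q R e A v = (Fintype.card A : ℂ)⁻¹ • ∑ u : A, R (eic Q e u) v := by
  rw [av, finsum_eq_sum_of_fintype, Nat.card_eq_fintype_card, LinearMap.smul_apply,
    LinearMap.sum_apply]

theorem sm_def {H : Subgroup (W ≃ₗ[F] W)} [Fintype H] (v : V) : sm R H v = ∑ h : H, R h v := by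
  rw [sm, finsum_eq_sum_of_fintype, LinearMap.sum_apply]

theorem av_of_fix (hx : x ∈ wt Q R e A 0) : av Q R e A x = x := by
  have := finW (F := F) (W := W)
  have := Fintype.ofFinite A
  rw [av_def, Finset.sum_congr rfl fun (u : A) _ => mem_wt0.1 hx u u.2, Finset.sum_const,
    Finset.card_univ,
    ← Nat.cast_smul_eq_nsmul ℂ, inv_smul_smul₀ (Nat.cast_ne_zero.2 Fintype.card_ne_zero)]

theorem av_of_ne (hx : x ∈ wt Q R e A l) {u : W} (hu : u ∈ A) (h : polar Q l u ≠ 0) :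
    av Q R e A x = 0 := by
  have := finW (F := F) (W := W)
  have := Fintype.ofFinite A
  rw [av_def, Finset.sum_congr rfl fun (u : A) _ => hx u u.2, ← Finset.sum_smul]
  have := AddChar.sum_eq_zero_iff_ne_zero (ψ := (psiF F).compAddMonoidHom
    ((𝐁 l).comp A.subtype).toAddMonoidHom).2 (AddChar.ne_zero_iff.2 (by
      by_contra! hc
      exact h (psi_eq fun s => by simpa using hc ⟨_, A.smul_mem s hu⟩)))
  rw [show ∑ i : A, psiF F (polar Q l i) = 0 from this, zero_smul, smul_zero]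

theorem av_mem {D : Submodule ℂ V} (hD : ∀ u ∈ A, R (eic Q e u) x ∈ D) : av Q R e A x ∈ D := by
  have := finW (F := F) (W := W)
  have := Fintype.ofFinite A
  rw [av_def]
  exact D.smul_mem _ (D.sum_mem fun u _ => hD u u.2)

theorem sm_mem {H : Subgroup (W ≃ₗ[F] W)} {D : Submodule ℂ V} (hD : ∀ g ∈ H, R g x ∈ D) :
    sm R H x ∈ D := by
  have := finE (F := F) (W := W)
  have := Fintype.ofFinite H
  rw [sm_def]
  exact D.sum_mem fun u _ => hD u u.2

theorem eq_zero_of_sm {H : Subgroup (W ≃ₗ[F] W)} (hx : x ∈ fx R H) (h : sm R H x = 0) : x = 0 := by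
  have := finE (F := F) (W := W)
  have := Fintype.ofFinite H
  rw [sm_def, Finset.sum_congr rfl fun (u : H) _ => hx u u.2, Finset.sum_const, Finset.card_univ,
    ← Nat.cast_smul_eq_nsmul ℂ] at h
  exact (smul_eq_zero.1 h).resolve_left (Nat.cast_ne_zero.2 Fintype.card_ne_zero)

theorem sum_finrank_le {ι : Type*} (S : Finset ι) (D : ι → Submodule ℂ V) (Y : Submodule ℂ V)
    (h1 : ∀ i ∈ S, D i ≤ Y) (h2 : ∀ i ∈ S, ∀ j ∈ S, i ≠ j → ∀ x ∈ D i, ∀ y ∈ D j, inner ℂ x y = 0) :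
    ∑ i ∈ S, finrank ℂ (D i) ≤ finrank ℂ Y := by
  classical
  suffices ∑ i ∈ S, finrank ℂ (D i) = finrank ℂ (S.sup D : Submodule ℂ V) from
    this.trans_le (Submodule.finrank_mono (Finset.sup_le h1))
  clear h1
  induction S using Finset.induction_on with
  | empty => rw [Finset.sup_empty, finrank_bot, Finset.sum_empty]
  | insert m S hm ih =>
    have : Disjoint (D m) (S.sup D) := ((D m).orthogonal_disjoint).mono_right (Finset.sup_le
      fun j hj y hy => (Submodule.mem_orthogonal _ _).2 fun x hx =>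
        h2 m (by simp) j (by simp [hj]) (fun e => hm (e ▸ hj)) x hx y hy)
    rw [Finset.sum_insert hm, Finset.sup_insert, ih fun i hi j hj => h2 i (by simp [hi]) j
      (by simp [hj]), ← Submodule.finrank_sup_add_finrank_inf_eq, this.eq_bot, finrank_bot, add_zero]

namespace ORep

variable (h : ORep Q R)
include h

theorem em (u w : W) : eic Q u w ∈ OmG Q := eic_mem h.nd h.h5 u w

theorem mul_apply {g' : W ≃ₗ[F] W} (hg : g ∈ OmG Q) (hg' : g' ∈ OmG Q) (v : V) :
    R (g * g') v = R g (R g' v) := by rw [h.mul g hg g' hg']; rfl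

theorem one_apply (v : V) : R 1 v = v := by rw [h.one]; rfl

theorem inv_apply (hg : g ∈ OmG Q) (v : V) : R g⁻¹ (R g v) = v := by
  rw [← h.mul_apply (inv_mem hg) hg, inv_mul_cancel, h.one_apply]

theorem ne_zero (hg : g ∈ OmG Q) (hx : x ≠ 0) : R g x ≠ 0 := fun e => hx (by
  rw [← h.inv_apply hg x, e, map_zero])

theorem conj (hg : g ∈ OmG Q) (u w : W) (v : V) :
    R g (R (eic Q u w) v) = R (eic Q (g u) (g w)) (R g v) := by
  rw [← h.mul_apply hg (h.em _ _), mul_eic (OmG_le hg), h.mul_apply (h.em _ _) hg]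

theorem wt_map (hg : g ∈ OmG Q) (hA : ∀ u ∈ A', g⁻¹ u ∈ A) (hx : x ∈ wt Q R e A l) :
    R g x ∈ wt Q R (g e) A' (g l) := fun u hu => by
  rw [← apply_inv_apply g u, ← h.conj hg, hx _ (hA u hu), map_smul, polar_map (OmG_le hg)]

theorem add_apply (he : Q e = 0) {u w : W} (hu : polar Q e u = 0) (hw : polar Q e w = 0) (v : V) :
    R (eic Q e (u + w)) v = R (eic Q e u) (R (eic Q e w) v) := by
  rw [eic_add he hu hw, h.mul_apply (h.em _ _) (h.em _ _)]

theorem comm (he : Q e = 0) {u w : W} (hu : polar Q e u = 0) (hw : polar Q e w = 0) (v : V) :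
    R (eic Q e u) (R (eic Q e w) v) = R (eic Q e w) (R (eic Q e u) v) := by
  rw [← h.add_apply he hu hw, add_comm, h.add_apply he hw hu]

theorem wt_eic (he : Q e = 0) (hA : ∀ u ∈ A, polar Q e u = 0) {w : W} (hw : polar Q e w = 0)
    (hx : x ∈ wt Q R e A l) : R (eic Q e w) x ∈ wt Q R e A l := fun u hu => by
  rw [h.comm he (hA u hu) hw, hx u hu, map_smul]

theorem wt_sup (he : Q e = 0) (hA : ∀ u ∈ A, polar Q e u = 0) (hA' : ∀ u ∈ A', polar Q e u = 0)
    (hx : x ∈ wt Q R e A l) (hx' : x ∈ wt Q R e A' l) : x ∈ wt Q R e (A ⊔ A') l := fun u hu => by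
  obtain ⟨a, ha, b, hb, rfl⟩ := Submodule.mem_sup.1 hu
  rw [h.add_apply he (hA a ha) (hA' b hb), hx' b hb, map_smul, hx a ha, smul_smul, polar_add_right,
    AddChar.map_add_eq_mul, mul_comm]

theorem self_apply (he : Q e = 0) (c : F) (v : V) : R (eic Q e (c • e)) v = v := by
  rw [eic_self he, h.one_apply]

theorem polar_eq_zero (he : Q e = 0) (heA : e ∈ A) (h0 : x ≠ 0) (hx : x ∈ wt Q R e A l) :
    polar Q e l = 0 := by
  rw [polar_comm]
  refine psi_eq fun s => eq_of_smul_eq h0 ?_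
  have := hx _ (A.smul_mem s heA)
  rw [h.self_apply he] at this
  simpa using this.symm

/-- An eigenvector is a weight vector. -/
theorem exists_wt (hZ : ND 𝐁 Z) (hAZ : A ≤ perp 𝐁 Z) (he : Q e = 0)
    (hA : ∀ u ∈ A, polar Q e u = 0) (h0 : x ≠ 0) (hx : ∀ u ∈ A, ∃ c : ℂ, R (eic Q e u) x = c • x) :
    ∃ l ∈ perp 𝐁 Z, x ∈ wt Q R e A l := by
  choose! c hc using hx
  obtain ⟨φ, hφ⟩ := exists_dual_of_map_add (psiF F) psiF_ne_one (fun u : A => c u)
    (eq_of_smul_eq h0 (by rw [← hc _ (Subtype.prop _), Submodule.coe_zero, eic_zero, h.one_apply,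
      one_smul])) fun u w => eq_of_smul_eq h0 (by
      rw [← hc _ (Subtype.prop _), Submodule.coe_add, h.add_apply he (hA _ u.2) (hA _ w.2),
        hc _ w.2, map_smul, hc _ u.2, smul_smul, mul_comm])
  obtain ⟨φ', rfl⟩ := LinearMap.exists_extend φ
  obtain ⟨r, rfl⟩ := exists_repr_dual (σ := RingHom.id F) Function.surjective_id 𝐁 h.nd.1 φ'
  obtain ⟨z, hz, hz'⟩ := (isWittPair_quad Q h.nd).exists_comp hZ r
  refine ⟨_, hz', fun u hu => ?_⟩
  rw [hc u hu, polar_sub_left, polar_comm Q z, pz (hAZ hu) hz, sub_zero]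
  exact congrArg (· • x) (hφ ⟨u, hu⟩)

/-- An invariant subspace is spanned by its weight vectors. -/
theorem le_of_wt (hZ : ND 𝐁 Z) (hAZ : A ≤ perp 𝐁 Z) (he : Q e = 0)
    (hA : ∀ u ∈ A, polar Q e u = 0) {D P : Submodule ℂ V}
    (hD : ∀ u ∈ A, ∀ v ∈ D, R (eic Q e u) v ∈ D)
    (hP : ∀ l ∈ perp 𝐁 Z, ∀ v ∈ D, v ≠ 0 → v ∈ wt Q R e A l → v ∈ P) : D ≤ P := by
  refine le_of_wsp (fun u : A => R (eic Q e u)) D (fun u => hD u u.2)
    (fun u w => h.comm he (hA _ u.2) (hA _ w.2)) (p := ringChar F)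
    (Nat.cast_ne_zero.2 (CharP.char_ne_zero_of_finite F _)) (fun u => ?_) fun c v hv h0 hc => ?_
  · have : ∀ n : ℕ, R (eic Q e u) ^ n = R (eic Q e u ^ n) := fun n => by
      induction n with
      | zero => simp [h.one]
      | succ n ih => rw [pow_succ, pow_succ, ih, h.mul _ (pow_mem (h.em _ _) _) _ (h.em _ _)]
    rw [this, eic_pow_char he (hA _ u.2), h.one]
  · obtain ⟨l, hl, hl'⟩ := h.exists_wt hZ hAZ he hA h0 fun u hu => ⟨_, hc ⟨u, hu⟩⟩
    exact hP l hl v hv h0 hl'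

theorem orth (hx : x ∈ wt Q R e A l) (hy : y ∈ wt Q R e A l') {u : W} (hu : u ∈ A)
    (hne : polar Q l u ≠ polar Q l' u) : inner ℂ x y = 0 := by
  by_contra h0
  refine hne (psi_eq fun s => ?_)
  have h1 := h.uni _ (h.em e (s • u)) x y
  rw [hx _ (A.smul_mem s hu), hy _ (A.smul_mem s hu), inner_smul_left, inner_smul_right,
    ← mul_assoc, polar_smul_right, polar_smul_right, smul_eq_mul, smul_eq_mul,
    ← AddChar.map_neg_eq_conj, ← AddChar.map_add_eq_mul] at h1
  have h2 := mul_right_cancel₀ h0 (h1.trans (one_mul _).symm)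
  rw [← mul_one (psiF F (s * _)), ← h2, ← AddChar.map_add_eq_mul, add_neg_cancel_left]

theorem eic_av (he : Q e = 0) (hA : ∀ u ∈ A, polar Q e u = 0) (v : V) :
    av Q R e A v ∈ wt Q R e A 0 := mem_wt0.2 fun u hu => by
  have := finW (F := F) (W := W)
  have := Fintype.ofFinite A
  rw [av_def, map_smul, map_sum]
  congr 1
  exact Fintype.sum_equiv (Equiv.addLeft (⟨u, hu⟩ : A)) _ _ fun w =>
    (h.add_apply he (hA u hu) (hA _ w.2) v).symm

theorem inner_av (hx : x ∈ wt Q R e A 0) (v : V) : inner ℂ x (av Q R e A v) = inner ℂ x v := by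
  have := finW (F := F) (W := W)
  have := Fintype.ofFinite A
  rw [av_def, inner_smul_right, inner_sum, Finset.sum_congr rfl (g := fun _ => inner ℂ x v)
    fun u _ => by rw [← h.uni _ (h.em e u) x v, mem_wt0.1 hx u u.2], Finset.sum_const,
    Finset.card_univ, nsmul_eq_mul, inv_mul_cancel_left₀ (Nat.cast_ne_zero.2 Fintype.card_ne_zero)]

theorem av_nonneg (he : Q e = 0) (hA : ∀ u ∈ A, polar Q e u = 0) (v : V) :
    0 ≤ (inner ℂ (av Q R e A v) v).re := by
  rw [← h.inner_av (h.eic_av he hA v)]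
  exact inner_self_nonneg (𝕜 := ℂ)

theorem av_conj (hg : g ∈ OmG Q) (hA : ∀ u, g u ∈ A' ↔ u ∈ A) (v : V) :
    R g (av Q R e A v) = av Q R (g e) A' (R g v) := by
  have := finW (F := F) (W := W)
  have := Fintype.ofFinite A
  have := Fintype.ofFinite A'
  let φ : A ≃ A' := g.toEquiv.subtypeEquiv fun u => (hA u).symm
  rw [av_def, av_def, map_smul, map_sum, Fintype.card_congr φ]
  congr 1
  exact Fintype.sum_equiv φ _ _ fun u => h.conj hg _ _ _

theorem sm_fix {H : Subgroup (W ≃ₗ[F] W)} (hH : H ≤ OmG Q) (v : V) : sm R H v ∈ fx R H :=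
  fun g hg => by
  have := finE (F := F) (W := W)
  have := Fintype.ofFinite H
  rw [sm_def, map_sum]
  exact Fintype.sum_equiv (Equiv.mulLeft (⟨g, hg⟩ : H)) _ _ fun w =>
    (h.mul_apply (hH hg) (hH w.2) v).symm

theorem sm_apply {H : Subgroup (W ≃ₗ[F] W)} (hH : H ≤ OmG Q) (hg : g ∈ H) (v : V) :
    sm R H (R g v) = sm R H v := by
  have := finE (F := F) (W := W)
  have := Fintype.ofFinite H
  rw [sm_def, sm_def]
  exact Fintype.sum_equiv (Equiv.mulRight (⟨g, hg⟩ : H)) _ _ fun w =>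
    (h.mul_apply (hH w.2) (hH hg) v).symm

theorem sum_wt_le (hZ : ND 𝐁 Z) (hA : perp 𝐁 Z ≤ A) (S : Finset W) (hS : ∀ l ∈ S, l ∈ perp 𝐁 Z)
    (Y : Submodule ℂ V) : ∑ l ∈ S, finrank ℂ ↥(Y ⊓ wt Q R e A l) ≤ finrank ℂ Y := by
  refine sum_finrank_le S _ Y (fun _ _ => inf_le_left) fun i hi j hj hij x hx y hy => ?_
  obtain ⟨u, hu, h1⟩ : ∃ u ∈ perp 𝐁 Z, polar Q (i - j) u ≠ 0 := by
    by_contra! hc
    exact hij (sub_eq_zero.1 (eq_zero_of_perp h.nd hZ (sub_mem (hS i hi) (hS j hj)) hc))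
  exact h.orth hx.2 hy.2 (hA hu) (by rwa [polar_sub_left, sub_ne_zero] at h1)

/-- The stabiliser of a vector. -/
def stab (x : V) : Subgroup (W ≃ₗ[F] W) where
  carrier := {g | g ∈ OmG Q ∧ R g x = x}
  mul_mem' := fun {a b} ha hb => ⟨mul_mem ha.1 hb.1, by rw [h.mul_apply ha.1 hb.1, hb.2, ha.2]⟩
  one_mem' := ⟨one_mem _, h.one_apply x⟩
  inv_mem' := fun {a} ha => ⟨inv_mem ha.1, by conv_lhs => rw [← ha.2, h.inv_apply ha.1]⟩

end ORep

end CF.OmDeg
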