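/-
Minimal degrees of orthogonal groups, part C: modules with singular weights of multiplicity one,
and inheritance of this property by the fixed space of the radical.
-/
import Cfsg.Agent.OmDeg.B

set_option autoImplicit false
set_option linter.unusedSectionVars false

namespace CF.OmDeg

open Module CF.Geom CF.Classical QuadraticMap

variable {F W V : Type*} [Field F] [Finite F] [AddCommGroup W] [Module F W] [FiniteDimensional F W]
  [NormedAddCommGroup V] [InnerProductSpace ℂ V] [FiniteDimensional ℂ V]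
  {Q : QuadraticForm F W} {Z A A' : Submodule F W} {R : (W ≃ₗ[F] W) → End ℂ V}
  {e f l l' m μ : W} {g : W ≃ₗ[F] W} {x y : V} {Y : Submodule ℂ V}

local notation "𝐁" => polarBilin Q

/-- The weight space of the full radical. -/
abbrev wz (Q : QuadraticForm F W) (R : (W ≃ₗ[F] W) → End ℂ V) (Z : Submodule F W) (e l : W) :
    Submodule ℂ V := wt Q R e (perp (polarBilin Q) (Z ⊔ F ∙ e)) l

/-- Admissible pairs. -/
structure Adm (Q : QuadraticForm F W) (Z : Submodule F W) (e l : W) : Prop where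
  he : Q e = 0
  e0 : e ≠ 0
  ez : e ∈ perp (polarBilin Q) Z
  lz : l ∈ perp (polarBilin Q) Z
  el : polar Q e l = 0

/-- Multiplicity one, with trivial action of the stabiliser. -/
structure One (Q : QuadraticForm F W) (R : (W ≃ₗ[F] W) → End ℂ V) (Z : Submodule F W)
    (Y : Submodule ℂ V) (e l : W) (x : V) : Prop where
  mem : x ∈ Y
  ne : x ≠ 0
  wt : x ∈ wz Q R Z e l
  uniq : ∀ v ∈ Y, v ∈ wz Q R Z e l → v ∈ ℂ ∙ x

/-- Only singular weights, of multiplicity one. -/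
structure Sit (Q : QuadraticForm F W) (R : (W ≃ₗ[F] W) → End ℂ V) (Z : Submodule F W)
    (Y : Submodule ℂ V) : Prop where
  nd : ND (polarBilin Q) Z
  inv : ∀ g ∈ GZ Q Z, ∀ v ∈ Y, R g v ∈ Y
  sing : ∀ e l, Adm Q Z e l → ∀ v ∈ Y, v ≠ 0 → v ∈ wz Q R Z e l → Q l = 0
  one : ∀ e l, Adm Q Z e l → Q l = 0 → l ∉ F ∙ e → ∃ x, One Q R Z Y e l x ∧
    ∀ g ∈ GZ Q Z, g e = e → g l = l → R g x = x

theorem p1_perp : ∀ u ∈ perp 𝐁 (Z ⊔ F ∙ e), polar Q e u = 0 := fun _ hu => (mem_p1.1 hu).2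

theorem p1_le : perp 𝐁 (Z ⊔ F ∙ e) ≤ perp 𝐁 Z := perp_anti le_sup_left

theorem p2_le : perp 𝐁 (Z ⊔ Submodule.span F {e, f}) ≤ perp 𝐁 (Z ⊔ F ∙ e) := fun _ hu =>
  mem_p1.2 ⟨(mem_p2.1 hu).1, (mem_p2.1 hu).2.1⟩

theorem self_p1 (he : Q e = 0) (hz : e ∈ perp 𝐁 Z) : e ∈ perp 𝐁 (Z ⊔ F ∙ e) :=
  mem_p1.2 ⟨hz, by simp [polar_self', he]⟩

theorem map_p1 (hg : g ∈ GZ Q Z) {u : W} : g u ∈ perp 𝐁 (Z ⊔ F ∙ g e) ↔ u ∈ perp 𝐁 (Z ⊔ F ∙ e) := by
  rw [mem_p1, mem_p1, polar_map (GZ_og hg)]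
  exact and_congr_left' ⟨fun h => by simpa [inv_apply_apply] using GZ_perp (inv_mem hg) h,
    GZ_perp hg⟩

theorem Adm.anti {Z' : Submodule F W} (h : Adm Q Z' e l) (hZ : Z ≤ Z') : Adm Q Z e l :=
  ⟨h.he, h.e0, perp_anti hZ h.ez, perp_anti hZ h.lz, h.el⟩

theorem HZ.adm (h : HZ Q Z e f) (hl : l ∈ perp 𝐁 (Z ⊔ Submodule.span F {e, f})) : Adm Q Z e l :=
  ⟨h.he, h.ne_zero, h.ez, (mem_p2.1 hl).1, (mem_p2.1 hl).2.1⟩

theorem exists_psi_ne (F : Type*) [Field F] [Finite F] : ∃ s : F, psiF F s ≠ 1 :=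
  AddChar.ne_one_iff.1 psiF_ne_one

theorem inner_av_eq (h : ORep Q R) (H : ∀ u ∈ A, u ≠ 0 → inner ℂ x (R (eic Q e u) y) = 0) :
    inner ℂ x (av Q R e A y) = (Nat.card A : ℂ)⁻¹ * inner ℂ x y := by
  have := finW (F := F) (W := W)
  have := Fintype.ofFinite A
  rw [av_def, inner_smul_right, inner_sum, Finset.sum_eq_single 0
    (fun (u : A) _ hu => H u u.2 fun e => hu (Subtype.ext e)) (by simp), Submodule.coe_zero, eic_zero,
    h.one_apply, Nat.card_eq_fintype_card]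

namespace ORep

variable (h : ORep Q R)
include h

theorem eg {u w : W} (hu : u ∈ perp 𝐁 Z) (hw : w ∈ perp 𝐁 Z) : eic Q u w ∈ GZ Q Z :=
  eic_GZ h.nd h.h5 hu hw

theorem wz_map (hg : g ∈ GZ Q Z) (hx : x ∈ wz Q R Z e l) : R g x ∈ wz Q R Z (g e) (g l) :=
  h.wt_map hg.1 (fun u hu => (map_p1 hg).1 (by rwa [apply_inv_apply])) hx

theorem wz_map' (hg : g ∈ GZ Q Z) {e' : W} (h1 : g e = e') (h2 : g l = l')
    (hx : x ∈ wz Q R Z e l) : R g x ∈ wz Q R Z e' l' := h1 ▸ h2 ▸ h.wz_map hg hx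

theorem wt_swap (he : Q e = 0) (hm : Q m = 0) (hem : polar Q e m = 0) (hmA : m ∈ A)
    (hf : polar Q f e = 1) (hx : x ∈ wt Q R e A l) :
    x ∈ wt Q R m (F ∙ e) (-polar Q l m • f) := fun u hu => by
  obtain ⟨t, rfl⟩ := Submodule.mem_span_singleton.1 hu
  rw [eic_swap hm (by simp [polar_comm Q m, hem]) (by simp [quad_smul, he]),
    eic_smul he (by simp [hem]), hx _ (A.smul_mem t (neg_mem hmA))]
  simp [hf, mul_comm]

theorem le_of_wz (hZ : ND 𝐁 Z) (he : Q e = 0) (h0 : e ≠ 0) (hz : e ∈ perp 𝐁 Z)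
    {D P : Submodule ℂ V} (hD : ∀ u ∈ perp 𝐁 (Z ⊔ F ∙ e), ∀ v ∈ D, R (eic Q e u) v ∈ D)
    (hP : ∀ l, Adm Q Z e l → ∀ v ∈ D, v ≠ 0 → v ∈ wz Q R Z e l → v ∈ P) : D ≤ P :=
  h.le_of_wt hZ p1_le he p1_perp hD fun l hl v hv v0 hw =>
    hP l ⟨he, h0, hz, hl, h.polar_eq_zero he (self_p1 he hz) v0 hw⟩ v hv v0 hw

theorem inv_fix (hY : ∀ g ∈ GZ Q Z, ∀ v ∈ Y, R g v ∈ Y) :
    ∀ g ∈ GZ Q (Z ⊔ Submodule.span F {e, f}), ∀ v ∈ Y ⊓ wz Q R Z e 0, R g v ∈ Y ⊓ wz Q R Z e 0 :=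
  fun _ hg _ hv => ⟨hY _ (mem_G2.1 hg).1 _ hv.1,
    h.wz_map' (mem_G2.1 hg).1 (mem_G2.1 hg).2.1 (map_zero _) hv.2⟩

/-- The weights of a second radical on the fixed space of the first. -/
theorem zero_of_orth (hZ : ND 𝐁 Z) (hY : ∀ g ∈ GZ Q Z, ∀ v ∈ Y, R g v ∈ Y) (hef : HZ Q Z e f)
    (hm : Adm Q (Z ⊔ Submodule.span F {e, f}) m μ) {v : V} (hv : v ∈ Y ⊓ wz Q R Z e 0)
    (hv' : v ∈ wz Q R (Z ⊔ Submodule.span F {e, f}) m μ)
    (H : ∀ c : F, ∀ x ∈ Y, x ≠ 0 → x ∈ wz Q R Z m (μ + c • e) → inner ℂ v x = 0) : v = 0 := by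
  obtain ⟨m1, m2, m3⟩ := mem_p2.1 hm.ez
  have hle : perp 𝐁 (Z ⊔ Submodule.span F {e, f} ⊔ F ∙ m) ≤ perp 𝐁 (Z ⊔ F ∙ m) :=
    perp_anti (sup_le_sup_right le_sup_left _)
  have he1 : (F ∙ e) ≤ perp 𝐁 (Z ⊔ F ∙ m) := (Submodule.span_singleton_le_iff_mem _ _).2
    (mem_p1.2 ⟨hef.ez, by rwa [polar_comm]⟩)
  have := h.le_of_wz hZ hm.he hm.e0 m1 (D := Y ⊓ wz Q R (Z ⊔ Submodule.span F {e, f}) m μ ⊓
    wt Q R m (F ∙ e) 0) (P := (ℂ ∙ v)ᗮ) (fun u hu x hx => ⟨⟨hY _ (h.eg m1 (p1_le hu)) _ hx.1.1,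
      h.wt_eic hm.he p1_perp (p1_perp u hu) hx.1.2⟩,
      h.wt_eic hm.he (fun w hw => p1_perp w (he1 hw)) (p1_perp u hu) hx.2⟩) fun l hl x hx x0 hw => by
    have a1 : polar Q e l = 0 := by
      simpa [polar_comm Q l] using wt_unique x0 (wt_anti he1 hw) hx.2
        (Submodule.mem_span_singleton_self e)
    have a2 := hef.sub_mem hl.lz
    rw [a1, zero_smul, sub_zero] at a2
    obtain ⟨t, ht⟩ := Submodule.mem_span_singleton.1 (mem_of_perp1 h.nd (hef.nd h.nd hZ) hm.ez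
      (sub_mem a2 hm.lz) fun y hy hy' => by
        simp [wt_unique x0 (wt_anti hle hw) hx.1.2 (mem_p1.2 ⟨hy, hy'⟩), (mem_p2.1 hy).2.1])
    refine Submodule.mem_orthogonal_singleton_iff_inner_right.2 (H (polar Q f l) x hx.1.1 x0
      (wt_congr (fun u hu => ?_) hw))
    rw [show l = μ + polar Q f l • e + t • m by rw [ht]; abel, polar_add_left _ _ (t • m),
      polar_smul_left, p1_perp u hu, smul_zero, add_zero]
    simp [m3, (mem_p2.1 hm.lz).2.2, hef.hfe]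
  exact inner_self_eq_zero.1 (Submodule.mem_orthogonal_singleton_iff_inner_right.1 (this
    ⟨⟨hv.1, hv'⟩, by simpa using h.wt_swap hef.he hm.he m2 (mem_p1.2 ⟨m1, m2⟩) hef.hfe hv.2⟩))

/-- Averaging a weight vector over a root group moving the weight. -/
theorem av_wt (hef : HZ Q Z e f) (hm : Adm Q (Z ⊔ Submodule.span F {e, f}) m μ) {u₀ : W}
    (u1 : u₀ ∈ perp 𝐁 (Z ⊔ Submodule.span F {e, f})) (u2 : polar Q μ u₀ = 1)
    (u3 : polar Q m u₀ = 0) (x0 : x ≠ 0) (hx : x ∈ wz Q R Z m μ)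
    (H : ∀ u ∈ perp 𝐁 (Z ⊔ Submodule.span F {e, f}), polar Q m u = 0 → polar Q μ u = 0 →
      R (eic Q e u) x = x) :
    inner ℂ x (av Q R e (F ∙ u₀) x) ≠ 0 ∧
      av Q R e (F ∙ u₀) x ∈ wz Q R (Z ⊔ Submodule.span F {e, f}) m μ ∧
      av Q R e (F ∙ u₀) x ∈ wt Q R e (perp 𝐁 (Z ⊔ Submodule.span F {e, f} ⊔ F ∙ m)) 0 := by
  obtain ⟨m1, m2, m3⟩ := mem_p2.1 hm.ez
  obtain ⟨μ1, μ2, μ3⟩ := mem_p2.1 hm.lz
  obtain ⟨v1, v2, v3⟩ := mem_p2.1 u1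
  have hs : ∀ w ∈ F ∙ u₀, polar Q e w = 0 := fun w hw => by
    obtain ⟨t, rfl⟩ := Submodule.mem_span_singleton.1 hw; simp [v2]
  have a1 : ∀ t : F, R (eic Q e (t • u₀)) x ∈ wz Q R Z m (μ - t • e) := fun t =>
    h.wz_map' (h.eg hef.ez (Submodule.smul_mem _ t v1))
      (eic_fix hef.he (by simp [v2]) m2 (by simp [polar_comm Q u₀, u3]))
      (by simp [eic_apply hef.he (show polar Q e (t • u₀) = 0 by simp [v2]), μ2, polar_comm Q u₀, u2])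
      hx
  refine ⟨?_, av_mem fun u hu => ?_, mem_wt0.2 fun u hu => ?_⟩
  · have := finW (F := F) (W := W)
    rw [inner_av_eq h fun u hu h0 => ?_]
    · exact mul_ne_zero (inv_ne_zero (Nat.cast_ne_zero.2 Nat.card_pos.ne'))
        (inner_self_ne_zero.2 x0)
    obtain ⟨t, rfl⟩ := Submodule.mem_span_singleton.1 hu
    refine h.orth hx (a1 t) (mem_p1.2 ⟨hef.fz, by rwa [polar_comm]⟩) ?_
    simpa [hef.hef, polar_comm Q μ, μ3] using fun e => h0 (by simp [e])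
  · obtain ⟨t, rfl⟩ := Submodule.mem_span_singleton.1 hu
    exact wt_congr (fun u hu => by simp [(mem_p2.1 (p1_le hu)).2.1])
      (wt_anti (perp_anti (sup_le_sup_right le_sup_left _)) (a1 t))
  · obtain ⟨w1, w2⟩ := mem_p1.1 hu
    have b1 : u - polar Q μ u • u₀ ∈ perp 𝐁 (Z ⊔ Submodule.span F {e, f}) :=
      sub_mem w1 (Submodule.smul_mem _ _ u1)
    have b2 := (mem_p2.1 b1).2.1
    rw [show u = (u - polar Q μ u • u₀) + polar Q μ u • u₀ by abel, h.add_apply hef.he b2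
      (by simp [v2]), mem_wt0.1 (h.eic_av hef.he hs x) _ (Submodule.smul_mem _ _
      (Submodule.mem_span_singleton_self u₀))]
    refine av_mem (D := LinearMap.eqLocus (R _) LinearMap.id) fun w hw => ?_
    change R _ _ = _
    rw [h.comm hef.he b2 (hs w hw), H _ b1 (by simp [w2, u3]) (by simp [u2])]; rfl

theorem Sit.inherit (S : Sit Q R Z Y) (hef : HZ Q Z e f) :
    Sit Q R (Z ⊔ Submodule.span F {e, f}) (Y ⊓ wz Q R Z e 0) := by
  have hZ' := hef.nd h.nd S.nd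
  have adm : ∀ {m μ : W}, Adm Q (Z ⊔ Submodule.span F {e, f}) m μ → ∀ c : F,
      Adm Q Z m (μ + c • e) := fun hm c => ⟨hm.he, hm.e0, (mem_p2.1 hm.ez).1,
    add_mem (mem_p2.1 hm.lz).1 (Submodule.smul_mem _ _ hef.ez), by
      simp [hm.el, polar_comm Q _ e, (mem_p2.1 hm.ez).2.1]⟩
  refine ⟨hZ', h.inv_fix S.inv, fun m μ hm v hv v0 hv' => by_contra fun hμ => v0 ?_,
    fun m μ hm hμ hμ' => ?_⟩
  · refine h.zero_of_orth S.nd S.inv hef hm hv hv' fun c x hx x0 hw => (hμ ?_).elim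
    simpa [quad_add, quad_smul, hef.he, polar_comm Q μ, (mem_p2.1 hm.lz).2.1] using
      S.sing _ _ (adm hm c) x hx x0 hw
  obtain ⟨m1, m2, m3⟩ := mem_p2.1 hm.ez
  obtain ⟨μ1, μ2, μ3⟩ := mem_p2.1 hm.lz
  obtain ⟨x, hx, hx'⟩ := S.one m μ (hm.anti le_sup_left) hμ hμ'
  obtain ⟨u₀, u1, u2, u3⟩ := exists_dual1 h.nd hZ' hm.ez hm.lz hμ' 1
  obtain ⟨v1, v2, v3⟩ := mem_p2.1 u1
  obtain ⟨a1, a2, a3⟩ := h.av_wt hef hm u1 u2 u3 hx.ne hx.wt fun u hu b1 b2 =>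
    hx' _ (h.eg hef.ez (mem_p2.1 hu).1) (eic_fix hef.he (mem_p2.1 hu).2.1 m2
      (by rwa [polar_comm])) (eic_fix hef.he (mem_p2.1 hu).2.1 μ2 (by rwa [polar_comm]))
  have a4 : av Q R e (F ∙ u₀) x ∈ Y := av_mem fun u hu => S.inv _ (h.eg hef.ez
    ((Submodule.span_singleton_le_iff_mem _ _).2 v1 hu)) _ hx.mem
  generalize av Q R e (F ∙ u₀) x = v₀ at a1 a2 a3 a4
  have a5 : v₀ ∈ wz Q R Z e 0 := by
    obtain ⟨s, hs⟩ := exists_psi_ne F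
    have g1 := h.eg (Z := Z) m1 (Submodule.smul_mem _ s v1)
    have g2 : eic Q m (s • u₀) e = e := eic_fix hm.he (by simp [u3]) (by rwa [polar_comm])
      (by simp [polar_comm Q u₀, v2])
    have hle : perp 𝐁 (Z ⊔ Submodule.span F {e, f} ⊔ F ∙ m) ≤ perp 𝐁 (Z ⊔ F ∙ e) :=
      p1_le.trans p2_le
    have := h.le_of_wz S.nd hef.he hef.ne_zero hef.ez
      (D := Y ⊓ wt Q R e (perp 𝐁 (Z ⊔ Submodule.span F {e, f} ⊔ F ∙ m)) 0)
      (P := LinearMap.eqLocus (R (eic Q m (s • u₀)) * (1 - av Q R e (perp 𝐁 (Z ⊔ F ∙ e))))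
        (1 - av Q R e (perp 𝐁 (Z ⊔ F ∙ e))))
      (fun u hu y hy => ⟨S.inv _ (h.eg hef.ez (p1_le hu)) _ hy.1, h.wt_eic hef.he
        (fun w hw => p1_perp w (hle hw)) (p1_perp u hu) hy.2⟩) (fun l hl y hy y0 hw => by
      have b2 := hef.sub_mem hl.lz
      rw [hl.el, zero_smul, sub_zero] at b2
      obtain ⟨t, ht⟩ := Submodule.mem_span_singleton.1 (mem_of_perp1 h.nd hZ' hm.ez b2
        fun z hz hz' => by
          simp [wt_unique y0 (wt_anti hle hw) hy.2 (mem_p1.2 ⟨hz, hz'⟩), (mem_p2.1 hz).2.1])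
      have b3 : y ∈ wz Q R Z e (t • m) := wt_congr (fun u hu => by simp [ht, p1_perp u hu]) hw
      change R _ (y - _) = y - _
      by_cases t0 : t = 0
      · rw [t0, zero_smul] at b3
        rw [av_of_fix b3, sub_self, map_zero]
      have b4 := Submodule.smul_mem _ t hm.ez
      have b5 := smul_ne_zero t0 hm.e0
      obtain ⟨z, hz, hz'⟩ := exists_dual1 h.nd S.nd hef.ez (mem_p2.1 b4).1 (hef.notMem b4 b5) 1
      obtain ⟨x', c1, c2⟩ := S.one e _ (hef.adm b4) (by simp [quad_smul, hm.he]) (hef.notMem b4 b5)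
      obtain ⟨c, rfl⟩ := Submodule.mem_span_singleton.1 (c1.uniq y hy.1 b3)
      rw [av_of_ne b3 (mem_p1.2 ⟨hz, hz'.2⟩) (by rw [hz'.1]; exact one_ne_zero), sub_zero, map_smul,
        c2 _ g1 g2 (eic_fix hm.he (by simp [u3]) (by simp [polar_self', hm.he])
          (by simp [polar_comm Q u₀, u3]))]) ⟨a4, a3⟩
    replace this : R _ (v₀ - _) = v₀ - _ := this
    rw [map_sub, h.av_conj g1.1 (A' := perp 𝐁 (Z ⊔ F ∙ e)) (fun u => by
      conv_lhs => rw [← g2]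
      exact map_p1 g1), g2, a2 _ (mem_p1.2 ⟨Submodule.smul_mem _ s u1, by simp [u3]⟩), map_smul,
      ← smul_sub, polar_smul_right, u2, smul_eq_mul, mul_one] at this
    have b : v₀ - av Q R e (perp 𝐁 (Z ⊔ F ∙ e)) v₀ = 0 := by_contra fun b =>
      hs (eq_of_smul_eq b (this.trans (one_smul _ _).symm))
    rw [sub_eq_zero.1 b]
    exact h.eic_av hef.he p1_perp _
  have key : ∀ v ∈ Y ⊓ wz Q R Z e 0, v ∈ wz Q R (Z ⊔ Submodule.span F {e, f}) m μ →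
      inner ℂ x v = 0 → v = 0 := fun v hv hv' h0 =>
    h.zero_of_orth S.nd S.inv hef hm hv hv' fun c y hy _ hw => by
      have g1 := h.eg (Z := Z) hef.ez (Submodule.smul_mem _ c v1)
      obtain ⟨a, ha⟩ := Submodule.mem_span_singleton.1 (hx.uniq _ (S.inv _ g1 _ hy) (h.wz_map' g1
        (eic_fix hef.he (by simp [v2]) m2 (by simp [polar_comm Q u₀, u3])) (by
          simp [eic_apply hef.he (show polar Q e (c • u₀) = 0 by simp [v2]), μ2, polar_comm Q u₀,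
            u2, v2, hef.ee]) hw))
      rw [← h.uni _ g1.1, ← ha, mem_wt0.1 hv.2 _ (mem_p1.2 ⟨Submodule.smul_mem _ c v1,
        by simp [v2]⟩), inner_smul_right, ← inner_conj_symm, h0, map_zero, mul_zero]
  refine ⟨v₀, ⟨⟨a4, a5⟩, fun e => a1 (by simp [e]), a2, fun v hv hv' => ?_⟩, fun g hg g1 g2 => ?_⟩
  · refine Submodule.mem_span_singleton.2 ⟨inner ℂ x v / inner ℂ x v₀, (sub_eq_zero.1 (key _
      (sub_mem hv (Submodule.smul_mem _ _ ⟨a4, a5⟩)) (sub_mem hv' (Submodule.smul_mem _ _ a2))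
      ?_)).symm⟩
    rw [inner_sub_right, inner_smul_right, div_mul_cancel₀ _ a1, sub_self]
  · refine sub_eq_zero.1 (key _ (sub_mem (h.inv_fix S.inv g hg _ ⟨a4, a5⟩) ⟨a4, a5⟩)
      (sub_mem (h.wz_map' hg g1 g2 a2) a2) ?_)
    rw [inner_sub_right, ← h.uni g hg.1 x v₀, hx' g (mem_G2.1 hg).1 g1 g2, sub_self]

theorem sm_wz (hZ : ND 𝐁 Z) (hl : Adm Q Z e l) (hl' : l ∉ F ∙ e) (hx : x ∈ wz Q R Z e l) :
    sm R (GZ Q Z) x = 0 := by
  obtain ⟨s, hs⟩ := exists_psi_ne F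
  obtain ⟨u, u1, u2, u3⟩ := exists_dual1 h.nd hZ hl.ez hl.lz hl' s
  have := h.sm_apply (H := GZ Q Z) (fun _ hg => hg.1) (h.eg hl.ez u1) x
  rw [hx u (mem_p1.2 ⟨u1, u3⟩), map_smul, u2] at this
  by_contra b
  exact hs (eq_of_smul_eq b (this.trans (one_smul _ _).symm))

theorem Sit.ker (S : Sit Q R Z Y) : Sit Q R Z (Y ⊓ LinearMap.ker (sm R (GZ Q Z))) := by
  refine ⟨S.nd, fun g hg v hv => ⟨S.inv g hg v hv.1, ?_⟩, fun e l hl v hv => S.sing e l hl v hv.1,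
    fun e l hl q hl' => ?_⟩
  · exact (h.sm_apply (H := GZ Q Z) (fun _ hg => hg.1) hg v).trans hv.2
  · obtain ⟨x, hx, hx'⟩ := S.one e l hl q hl'
    exact ⟨x, ⟨⟨hx.mem, h.sm_wz S.nd hl hl' hx.wt⟩, hx.ne, hx.wt, fun v hv => hx.uniq v hv.1⟩, hx'⟩

end ORep

theorem finrank_fx_add (Y : Submodule ℂ V) (H : Subgroup (W ≃ₗ[F] W)) :
    finrank ℂ ↥(Y ⊓ fx R H) + finrank ℂ ↥(Y ⊓ LinearMap.ker (sm R H)) ≤ finrank ℂ Y := by
  have : Disjoint (Y ⊓ fx R H) (Y ⊓ LinearMap.ker (sm R H)) :=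
    Submodule.disjoint_def.2 fun x hx hx' => eq_zero_of_sm hx.2 hx'.2
  rw [← Submodule.finrank_sup_add_finrank_inf_eq, this.eq_bot, finrank_bot, add_zero]
  exact Submodule.finrank_mono (sup_le inf_le_left inf_le_left)

end CF.OmDeg
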