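/-
Minimal degrees of orthogonal groups, part D: fixed vectors of the Levi factor, and the inductive
step.
-/
import Cfsg.Agent.OmDeg.C

set_option autoImplicit false
set_option linter.unusedSectionVars false

namespace CF.OmDeg

open Module CF.Geom CF.Classical QuadraticMap

variable {F W V : Type*} [Field F] [Finite F] [AddCommGroup W] [Module F W] [FiniteDimensional F W]
  [NormedAddCommGroup V] [InnerProductSpace ℂ V] [FiniteDimensional ℂ V]
  {Q : QuadraticForm F W} {Z A A' : Submodule F W} {R : (W ≃ₗ[F] W) → End ℂ V}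
  {e f l l' m μ : W} {g : W ≃ₗ[F] W} {x y : V} {Y : Submodule ℂ V}

local notation "𝐁" => polarBilin Q

/-- The non-zero vectors of norm `c` orthogonal to `Z`. -/
noncomputable def vs (Q : QuadraticForm F W) (Z : Submodule F W) (c : F) : Finset W :=
  have := finW (F := F) (W := W)
  (Set.toFinite (nS Q (perp (polarBilin Q) Z) c)).toFinset

theorem mem_vs {c : F} : l ∈ vs Q Z c ↔ l ∈ perp 𝐁 Z ∧ Q l = c ∧ l ≠ 0 := by simp [vs, nS]

theorem card_vs0 : (vs Q Z 0).card + 1 = cnt 𝐁 Q Z 0 := by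
  have := finW (F := F) (W := W)
  rw [← card_ne_zero_add_one, ← Nat.card_eq_finsetCard]
  congr 1
  exact Nat.card_congr (Equiv.subtypeEquivRight fun v => by simp [mem_vs, and_comm])

theorem card_vs {r : W} (hr : Q r ≠ 0) : (vs Q Z (Q r)).card = cnt 𝐁 Q Z r := by
  rw [cnt, ← Nat.card_eq_finsetCard]
  exact Nat.card_congr (Equiv.subtypeEquivRight fun v => mem_vs.trans
    ⟨fun h => ⟨h.1, h.2.1⟩, fun h => ⟨h.1, h.2, fun e => hr (by rw [← h.2, e, map_zero])⟩⟩)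

open _root_.Classical in
theorem card_not_perp (hQ : LinearMap.Nondegenerate 𝐁) (hZ : ND 𝐁 Z) (hl : l ∈ vs Q Z 0) :
    ((vs Q Z 0).filter fun m => polar Q l m ≠ 0).card =
      (Nat.card F - 1) * Nat.card F ^ (finrank F (perp 𝐁 Z) - 2) := by
  obtain ⟨l1, l2, l3⟩ := mem_vs.1 hl
  obtain ⟨f, hf⟩ := exists_HZ hQ l2 (hZ.notMem l1 l3) l1
  have hW := isWittPair_quad Q hQ
  have := Fintype.ofFinite F
  have := finW (F := F) (W := W)
  have q1 := hf.he.trans (map_zero Q).symm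
  have h1 : ∀ (a : F) (t : perp 𝐁 (Z ⊔ Submodule.span F {l, f}) × F),
      polar Q l (a • f + t.1 + t.2 • l) = a := fun a t => by
    simp [hf.hef, (mem_p2.1 t.1.2).2.1, hf.ee]
  rw [← Nat.card_eq_finsetCard, Nat.card_congr (Equiv.subtypeEquivRight (q := fun v =>
    v ∈ perp 𝐁 Z ∧ (polar Q l v ≠ 0 ∧ Q v = Q 0)) fun v => by
      simp only [Finset.mem_filter, mem_vs, map_zero]
      exact ⟨fun h => ⟨h.1.1, h.2, h.1.2.1⟩, fun h => ⟨⟨h.1, h.2.2, fun e => h.2.1 (by simp [e])⟩,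
        h.2.1⟩⟩), hW.card_perp_hyp q1 (hf.hf.trans (map_zero Q).symm) hf.hef l1 hf.fz,
    ← Finset.add_sum_erase _ _ (Finset.mem_univ 0), Finset.sum_congr rfl
      (g := fun _ => Nat.card F ^ (finrank F (perp 𝐁 Z) - 2)) fun a ha => ?_, Finset.sum_const,
    Finset.card_erase_of_mem (Finset.mem_univ _), Finset.card_univ, ← Nat.card_eq_fintype_card,
    smul_eq_mul]
  · simp only [h1]; simp
  · simp only [h1, Finset.ne_of_mem_erase ha, ne_eq, not_false_eq_true, true_and]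
    rw [IsWittPair.card_line (slideCard_quad Q) q1 hf.hef (Finset.ne_of_mem_erase ha), mul_one, hf.finrank hQ,
      Nat.add_sub_cancel]

namespace ORep

variable (h : ORep Q R)
include h

theorem av_of_wz (hZ : ND 𝐁 Z) (hl : Adm Q Z e l) (hl' : l ∉ F ∙ e) (hx : x ∈ wz Q R Z e l) :
    av Q R e (perp 𝐁 (Z ⊔ F ∙ e)) x = 0 := by
  obtain ⟨z, hz, hz'⟩ := exists_dual1 h.nd hZ hl.ez hl.lz hl' 1
  exact av_of_ne hx (mem_p1.2 ⟨hz, hz'.2⟩) (by rw [hz'.1]; exact one_ne_zero)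

open _root_.Classical in
theorem av_line (hx : x ∈ wt Q R m (F ∙ e) l) :
    av Q R m (F ∙ e) x = if polar Q l e = 0 then x else 0 := by
  split_ifs with h0
  · exact av_of_fix (wt_congr (fun u hu => by
      obtain ⟨t, rfl⟩ := Submodule.mem_span_singleton.1 hu; simp [h0]) hx)
  · exact av_of_ne hx (Submodule.mem_span_singleton_self e) h0

theorem Sit.sum_av (S : Sit Q R Z Y) (hef : HZ Q Z e f) (hy : y ∈ Y)
    (h0 : av Q R e (perp 𝐁 (Z ⊔ F ∙ e)) y = 0) :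
    ∑ m ∈ vs Q (Z ⊔ Submodule.span F {e, f}) 0, av Q R m (F ∙ e) y =
      (((vs Q (Z ⊔ Submodule.span F {e, f}) 0).card : ℂ) - ((Nat.card F - 1) * Nat.card F ^
        (finrank F (perp 𝐁 (Z ⊔ Submodule.span F {e, f})) - 2) : ℕ)) • y := by
  classical
  set N : ℕ := (Nat.card F - 1) * Nat.card F ^
    (finrank F (perp 𝐁 (Z ⊔ Submodule.span F {e, f})) - 2) with hN
  set T := vs Q (Z ⊔ Submodule.span F {e, f}) 0
  have := h.le_of_wz S.nd hef.he hef.ne_zero hef.ez (D := Y)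
    (P := LinearMap.eqLocus (∑ m ∈ T, av Q R m (F ∙ e))
      (((T.card : ℂ) - N) • 1 + (N : ℂ) • av Q R e (perp 𝐁 (Z ⊔ F ∙ e))))
    (fun u hu => S.inv _ (h.eg hef.ez (p1_le hu))) (fun l hl x hx x0 hw => by
      have b2 := hef.sub_mem hl.lz
      rw [hl.el, zero_smul, sub_zero] at b2
      have b3 : x ∈ wz Q R Z e (l - polar Q f l • e) :=
        wt_congr (fun u hu => by simp [p1_perp u hu]) hw
      have b4 := S.sing _ _ (hef.adm b2) x hx x0 b3
      generalize l - polar Q f l • e = l at b2 b3 b4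
      have b5 : ∀ m ∈ T, av Q R m (F ∙ e) x = if polar Q l m ≠ 0 then 0 else x := fun m hm => by
        obtain ⟨m1, m2, -⟩ := mem_vs.1 hm
        rw [h.av_line (h.wt_swap hef.he m2 (mem_p2.1 m1).2.1 (p2_le m1) hef.hfe b3)]
        simp [hef.hfe]
      change (∑ m ∈ T, av Q R m (F ∙ e)) x = ((T.card : ℂ) - N) • x + (N : ℂ) • av Q R e _ x
      rw [LinearMap.sum_apply, Finset.sum_congr rfl b5, Finset.sum_ite, Finset.sum_const_zero,
        zero_add, Finset.sum_const, ← Nat.cast_smul_eq_nsmul ℂ]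
      by_cases l0 : l = 0
      · subst l0
        rw [av_of_fix b3, ← add_smul, sub_add_cancel]; simp
      rw [h.av_of_wz S.nd (hef.adm b2) (hef.notMem b2 l0) b3, smul_zero, add_zero,
        hN, ← card_not_perp h.nd (hef.nd h.nd S.nd) (mem_vs.2 ⟨b2, b4, l0⟩),
        ← Finset.card_filter_add_card_filter_not (s := T) (fun m => polar Q l m ≠ 0)]
      simp [T]) hy
  replace this : (∑ m ∈ T, av Q R m (F ∙ e)) y = ((T.card : ℂ) - N) • y + (N : ℂ) • av Q R e _ y :=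
    this
  rwa [LinearMap.sum_apply, h0, smul_zero, add_zero] at this

theorem Sit.av_add (S : Sit Q R Z Y) (hef : HZ Q Z e f) (hy : y ∈ Y)
    (h0 : y ∈ fx R (GZ Q (Z ⊔ Submodule.span F {e, f})))
    (hm : m ∈ vs Q (Z ⊔ Submodule.span F {e, f}) 0) :
    av Q R m (F ∙ e) y + av Q R m (F ∙ f) y = y + av Q R m (perp 𝐁 (Z ⊔ F ∙ m)) y := by
  obtain ⟨m0, q, m4⟩ := mem_vs.1 hm
  obtain ⟨m1, m2, m3⟩ := mem_p2.1 m0
  have hle : perp 𝐁 (Z ⊔ Submodule.span F {e, f} ⊔ F ∙ m) ≤ perp 𝐁 (Z ⊔ F ∙ m) :=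
    perp_anti (sup_le_sup_right le_sup_left _)
  have he1 : e ∈ perp 𝐁 (Z ⊔ F ∙ m) := mem_p1.2 ⟨hef.ez, by rwa [polar_comm]⟩
  have hf1 : f ∈ perp 𝐁 (Z ⊔ F ∙ m) := mem_p1.2 ⟨hef.fz, by rwa [polar_comm]⟩
  refine h.le_of_wz S.nd q m4 m1 (D := Y ⊓ wz Q R (Z ⊔ Submodule.span F {e, f}) m 0)
    (P := LinearMap.eqLocus (av Q R m (F ∙ e) + av Q R m (F ∙ f))
      (1 + av Q R m (perp 𝐁 (Z ⊔ F ∙ m)))) (fun u hu x hx => ⟨S.inv _ (h.eg m1 (p1_le hu)) _ hx.1,
      h.wt_eic q p1_perp (p1_perp u hu) hx.2⟩) (fun l hl x hx x0 hw => ?_)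
    ⟨hy, mem_wt0.2 fun u hu => h0 _ (h.eg m0 (p1_le hu))⟩
  obtain ⟨t, ht⟩ := Submodule.mem_span_singleton.1 (mem_of_perp1 h.nd (hef.nd h.nd S.nd) m0
    (hef.sub_mem hl.lz) fun y hy hy' => by
      simp [wt_unique x0 (wt_anti hle hw) hx.2 (mem_p1.2 ⟨hy, hy'⟩), (mem_p2.1 hy).2])
  have b1 : l = polar Q f l • e + polar Q e l • f + t • m := by rw [ht]; abel
  have b2 := S.sing _ _ hl x hx.1 x0 hw
  rw [b1] at b2
  simp only [quad_add, quad_smul, hef.he, hef.hf, q, polar_add_left, polar_smul_left,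
    polar_smul_right, hef.hef, m2, m3, smul_eq_mul, mul_zero, zero_add, add_zero, mul_one] at b2
  change av Q R m _ x + av Q R m _ x = x + av Q R m _ x
  rw [h.av_line (wt_anti ((Submodule.span_singleton_le_iff_mem _ _).2 he1) hw),
    h.av_line (wt_anti ((Submodule.span_singleton_le_iff_mem _ _).2 hf1) hw), polar_comm Q l,
    polar_comm Q l]
  by_cases c1 : polar Q e l = 0
  · by_cases c2 : polar Q f l = 0
    · rw [if_pos c1, if_pos c2, av_of_fix (wt_congr (fun u hu => ?_) hw)]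
      rw [b1, c1, c2]; simp [p1_perp u hu]
    · rw [if_pos c1, if_neg c2, av_of_ne hw hf1 (by rwa [polar_comm])]
  · rw [if_neg c1, if_pos ((mul_eq_zero.1 b2).resolve_left c1), av_of_ne hw he1
      (by rwa [polar_comm]), add_comm]

/-- The numerical condition for the positivity argument. -/
def Pos (Q : QuadraticForm F W) (Z : Submodule F W) : Prop :=
  (vs Q Z 0).card < 2 * ((Nat.card F - 1) * Nat.card F ^ (finrank F (perp (polarBilin Q) Z) - 2))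

theorem Sit.pos (S : Sit Q R Z Y) (hef : HZ Q Z e f) (hp : Pos Q (Z ⊔ Submodule.span F {e, f}))
    (hy : y ∈ Y) (h0 : y ∈ fx R (GZ Q (Z ⊔ Submodule.span F {e, f})))
    (h1 : av Q R e (perp 𝐁 (Z ⊔ F ∙ e)) y = 0) (h2 : av Q R f (perp 𝐁 (Z ⊔ F ∙ f)) y = 0) :
    y = 0 := by
  have a1 := Sit.sum_av h S hef hy h1
  have a2 := Sit.sum_av h S hef.symm hy h2
  rw [Set.pair_comm f e] at a2
  have a3 := Finset.sum_congr rfl fun m hm => Sit.av_add h S hef hy h0 hm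
  rw [Finset.sum_add_distrib, Finset.sum_add_distrib, a1, a2, Finset.sum_const,
    ← Nat.cast_smul_eq_nsmul ℂ, ← add_smul, ← sub_eq_iff_eq_add', ← sub_smul] at a3
  have a4 : 0 ≤ (inner ℂ (∑ m ∈ vs Q (Z ⊔ Submodule.span F {e, f}) 0,
      av Q R m (perp 𝐁 (Z ⊔ F ∙ m)) y) y).re := by
    rw [sum_inner, Complex.re_sum]
    exact Finset.sum_nonneg fun m hm => h.av_nonneg (mem_vs.1 hm).2.1 p1_perp y
  unfold Pos at hp
  generalize (vs Q (Z ⊔ Submodule.span F {e, f}) 0).card = s at a3 hp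
  generalize (Nat.card F - 1) * _ = N at a3 hp
  rw [← a3, inner_smul_left, inner_self_eq_norm_sq_to_K] at a4
  have a5 : (s : ℝ) < 2 * N := by exact_mod_cast hp
  have a6 : 0 ≤ ((s : ℝ) - 2 * N) * ‖y‖ ^ 2 := by
    convert a4 using 1
    rw [← Complex.ofReal_re (_ * _)]
    congr 1
    simp only [map_sub, map_add, map_natCast]
    push_cast; ring_nf; rfl
  have a7 : ‖y‖ ^ 2 ≤ 0 := by nlinarith
  simpa using le_antisymm a7 (sq_nonneg _)

theorem Sit.le_fix (S : Sit Q R Z Y) (hef : HZ Q Z e f) (hp : Pos Q (Z ⊔ Submodule.span F {e, f}))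
    (L : Finset W) (hL : L ⊆ vs Q (Z ⊔ Submodule.span F {e, f}) 0)
    (hL' : ∀ a ∈ L, ∀ b ∈ L, ∀ g ∈ GZ Q (Z ⊔ Submodule.span F {e, f}), g a = b → a = b) :
    L.card ≤ finrank ℂ ↥(Y ⊓ wz Q R Z f 0 ⊓ fx R (GZ Q (Z ⊔ Submodule.span F {e, f}))) := by
  classical
  set H := GZ Q (Z ⊔ Submodule.span F {e, f}) with hH
  have hO : H ≤ OmG Q := fun _ hg => hg.1
  have := finE (F := F) (W := W)
  have := Fintype.ofFinite H
  have hZ' := hef.nd h.nd S.nd
  have key : ∀ l ∈ L, ∃ x, One Q R Z Y e l x ∧ ∀ g ∈ GZ Q Z, g e = e → g l = l → R g x = x :=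
    fun l hl => S.one e l (hef.adm (mem_vs.1 (hL hl)).1) (mem_vs.1 (hL hl)).2.1
      (hef.notMem (mem_vs.1 (hL hl)).1 (mem_vs.1 (hL hl)).2.2)
  choose! x hx hx' using key
  have w1 : ∀ l ∈ L, ∀ g ∈ H, R g (x l) ∈ wz Q R Z e (g l) := fun l hl g hg =>
    h.wz_map' (mem_G2.1 hg).1 (mem_G2.1 hg).2.1 rfl (hx l hl).wt
  have ort : ∀ a ∈ perp 𝐁 (Z ⊔ Submodule.span F {e, f}), ∀ b ∈ perp 𝐁 (Z ⊔ Submodule.span F {e, f}),
      a ≠ b → ∀ u ∈ wz Q R Z e a, ∀ v ∈ wz Q R Z e b, inner ℂ u v = 0 := fun a ha b hb hab u hu v hv => by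
    obtain ⟨w, hw, h1⟩ : ∃ w ∈ perp 𝐁 (Z ⊔ Submodule.span F {e, f}), polar Q (a - b) w ≠ 0 := by
      by_contra! hc
      exact hab (sub_eq_zero.1 (eq_zero_of_perp h.nd hZ' (sub_mem ha hb) hc))
    exact h.orth hu hv (p2_le hw) (by rwa [polar_sub_left, sub_ne_zero] at h1)
  have nz : ∀ l ∈ L, sm R H (x l) ≠ 0 := fun l hl e0 => by
    have : 0 < (inner ℂ (x l) (sm R H (x l))).re := by
      have p : 0 < (inner ℂ (x l) (x l)).re := (re_inner_self_pos (𝕜 := ℂ)).2 (hx l hl).ne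
      rw [sm_def, inner_sum, Complex.re_sum]
      refine Finset.sum_pos' (fun g _ => ?_) ⟨1, Finset.mem_univ _, by
        rwa [OneMemClass.coe_one, h.one_apply]⟩
      by_cases b : g.1 l = l
      · rw [hx' l hl _ (mem_G2.1 g.2).1 (mem_G2.1 g.2).2.1 b]; exact p.le
      · rw [ort _ (mem_vs.1 (hL hl)).1 _ (GZ_perp g.2 (mem_vs.1 (hL hl)).1) (Ne.symm b) _
          (hx l hl).wt _ (w1 l hl _ g.2)]; rfl
    simp [e0] at this
  have a1 := sum_finrank_le L (fun l => ℂ ∙ sm R H (x l))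
    (Y ⊓ fx R H ⊓ LinearMap.ker (av Q R e (perp 𝐁 (Z ⊔ F ∙ e))))
    (fun l hl => (Submodule.span_singleton_le_iff_mem _ _).2 ⟨⟨sm_mem fun g hg =>
      S.inv _ (mem_G2.1 hg).1 _ (hx l hl).mem, h.sm_fix hO _⟩, sm_mem fun g hg => by
        have b := GZ_perp hg (mem_vs.1 (hL hl)).1
        exact h.av_of_wz S.nd (hef.adm b) (hef.notMem b (by simpa using (mem_vs.1 (hL hl)).2.2))
          (w1 l hl g hg)⟩) fun a ha b hb hab u hu v hv => by
      obtain ⟨c, rfl⟩ := Submodule.mem_span_singleton.1 hu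
      obtain ⟨d, rfl⟩ := Submodule.mem_span_singleton.1 hv
      rw [inner_smul_left, inner_smul_right, sm_def, sm_def, sum_inner, Finset.sum_eq_zero,
        mul_zero, mul_zero]
      intro g _
      rw [inner_sum]
      refine Finset.sum_eq_zero fun k _ => ort _ (GZ_perp g.2 (mem_vs.1 (hL ha)).1) _
        (GZ_perp k.2 (mem_vs.1 (hL hb)).1) (fun e => hab (hL' a ha b hb _ (k⁻¹ * g).2 ?_)) _
        (w1 a ha _ g.2) _ (w1 b hb _ k.2)
      rw [Subgroup.coe_mul, LinearEquiv.mul_apply, e]; exact inv_apply_apply _ _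
  rw [Finset.sum_congr rfl fun l hl => finrank_span_singleton (nz l hl), Finset.sum_const,
    smul_eq_mul, mul_one] at a1
  refine a1.trans (LinearMap.finrank_le_finrank_of_injective (f := (av Q R f
    (perp 𝐁 (Z ⊔ F ∙ f))).restrict fun v hv => ⟨⟨av_mem fun u hu => S.inv _
      (h.eg hef.fz (p1_le hu)) _ hv.1.1, h.eic_av hef.hf p1_perp v⟩, fun g hg => ?_⟩)
    ((injective_iff_map_eq_zero _).2 fun v hv => Subtype.ext
      (Sit.pos h S hef hp v.2.1.1 v.2.1.2 v.2.2 (congrArg Subtype.val hv))))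
  rw [h.av_conj hg.1 (A' := perp 𝐁 (Z ⊔ F ∙ f)) (fun u => by
    conv_lhs => rw [← (mem_G2.1 hg).2.2]
    exact map_p1 (mem_G2.1 hg).1), (mem_G2.1 hg).2.2, hv.1.2 g hg]

theorem sum_le (hZ : ND 𝐁 Z) (hef : HZ Q Z e f) (T : Finset W)
    (hT : ∀ l ∈ T, l ∈ perp 𝐁 (Z ⊔ Submodule.span F {e, f}) ∧ l ≠ 0) {d : ℕ}
    (hd : ∀ l ∈ T, d ≤ finrank ℂ ↥(Y ⊓ wz Q R Z e l)) :
    d * T.card + finrank ℂ ↥(Y ⊓ wz Q R Z e 0) ≤ finrank ℂ Y := by
  classical
  have := h.sum_wt_le (e := e) (hef.nd h.nd hZ) p2_le (insert 0 T) (fun l hl => by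
    rcases Finset.mem_insert.1 hl with rfl | hl
    exacts [zero_mem _, (hT l hl).1]) Y
  rw [Finset.sum_insert fun h => (hT 0 h).2 rfl] at this
  have h2 := Finset.card_nsmul_le_sum T _ _ hd
  rw [smul_eq_mul, mul_comm] at h2
  exact le_trans (by rw [add_comm]; exact Nat.add_le_add_left h2 _) this

/-- The inductive step. -/
theorem Sit.step (S : Sit Q R Z Y) (hef : HZ Q Z e f) (hp : Pos Q (Z ⊔ Submodule.span F {e, f}))
    (L : Finset W) (hL : L ⊆ vs Q (Z ⊔ Submodule.span F {e, f}) 0)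
    (hL' : ∀ a ∈ L, ∀ b ∈ L, ∀ g ∈ GZ Q (Z ⊔ Submodule.span F {e, f}), g a = b → a = b) :
    ∃ Y', Sit Q R (Z ⊔ Submodule.span F {e, f}) Y' ∧
      (vs Q (Z ⊔ Submodule.span F {e, f}) 0).card + L.card + finrank ℂ Y' ≤ finrank ℂ Y := by
  have a1 := Sit.le_fix h S hef.symm (by rwa [Set.pair_comm]) L (by rwa [Set.pair_comm])
    (by rwa [Set.pair_comm])
  rw [Set.pair_comm f e] at a1
  have a2 := finrank_fx_add (R := R) (Y ⊓ wz Q R Z e 0) (GZ Q (Z ⊔ Submodule.span F {e, f}))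
  have a3 := h.sum_le (Y := Y) S.nd hef (vs Q (Z ⊔ Submodule.span F {e, f}) 0)
    (fun l hl => ⟨(mem_vs.1 hl).1, (mem_vs.1 hl).2.2⟩) (d := 1) fun l hl => by
      obtain ⟨l1, l2, l3⟩ := mem_vs.1 hl
      obtain ⟨x, hx, -⟩ := S.one e l (hef.adm l1) l2 (hef.notMem l1 l3)
      exact finrank_pos_iff_exists_ne_zero.2 ⟨⟨x, hx.mem, hx.wt⟩, fun e => hx.ne
        (congrArg Subtype.val e)⟩
  exact ⟨_, Sit.ker h (Sit.inherit h S hef), by omega⟩

end ORep

end CF.OmDeg
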