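/-
Minimal degrees of orthogonal groups, part E: the stabiliser of a weight of multiplicity one acts
trivially; the basic case division.
-/
import Cfsg.Agent.OmDeg.D

set_option autoImplicit false
set_option linter.unusedSectionVars false

namespace CF.OmDeg

open Module CF.Geom CF.Classical QuadraticMap

variable {F W V : Type*} [Field F] [Finite F] [AddCommGroup W] [Module F W] [FiniteDimensional F W]
  [NormedAddCommGroup V] [InnerProductSpace ℂ V] [FiniteDimensional ℂ V]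
  {Q : QuadraticForm F W} {Z A A' : Submodule F W} {R : (W ≃ₗ[F] W) → End ℂ V}
  {e f l l' m μ : W} {g : W ≃ₗ[F] W} {x y : V} {Y : Submodule ℂ V}

local notation "𝐁" => polarBilin Q

theorem mem_p3 {u : W} : u ∈ perp 𝐁 (Z ⊔ F ∙ e ⊔ F ∙ l ⊔ F ∙ m) ↔
    u ∈ perp 𝐁 Z ∧ polar Q e u = 0 ∧ polar Q l u = 0 ∧ polar Q m u = 0 := by
  simp only [mem_p1, and_assoc]

/-- Minus type, detected by the number of singular vectors. -/
def Mn (Q : QuadraticForm F W) (Z : Submodule F W) (k : ℕ) : Prop :=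
  finrank F (perp (polarBilin Q) Z) = 2 * k + 2 ∧
    cnt (polarBilin Q) Q Z 0 + Nat.card F ^ (k + 1) = Nat.card F ^ (2 * k + 1) + Nat.card F ^ k

theorem Mn.step (hQ : LinearMap.Nondegenerate 𝐁) {k : ℕ} (h : Mn Q Z (k + 1)) (hef : HZ Q Z e f) :
    Mn Q (Z ⊔ Submodule.span F {e, f}) k := by
  have h1 := hef.finrank hQ
  have h2 := hef.cnt hQ 0
  have h3 : finrank F (perp 𝐁 (Z ⊔ Submodule.span F {e, f})) = 2 * k + 2 := by
    have := h.1; omega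
  have hq : 1 ≤ Nat.card F := Nat.card_pos
  refine ⟨h3, Nat.eq_of_mul_eq_mul_left hq ?_⟩
  have h4 := h.2
  rw [h2, h3] at h4
  zify [hq] at h4 ⊢
  linear_combination h4

theorem Mn.aniso (h : Mn Q Z 0) : ∀ x ∈ perp 𝐁 Z, Q x = 0 → x = 0 := fun x hx q => by
  have h1 := h.2
  rw [← card_vs0] at h1
  have h2 : (vs Q Z 0).card = 0 := by simp only [mul_zero, pow_zero] at h1; omega
  by_contra h0
  exact Finset.notMem_empty x (Finset.card_eq_zero.1 h2 ▸ mem_vs.2 ⟨hx, q, h0⟩)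

theorem inv_of_eq {a b : W} (h : g a = b) : g⁻¹ b = a := h ▸ inv_apply_apply g a

theorem HZ.reduce (hQ : LinearMap.Nondegenerate 𝐁) (h5 : 5 ≤ Module.finrank F W) (h : HZ Q Z e f)
    (hg : g ∈ GZ Q Z) (he : g e = e) : ∃ u ∈ perp 𝐁 Z, polar Q e u = 0 ∧
      (eic Q e u)⁻¹ * g ∈ GZ Q (Z ⊔ Submodule.span F {e, f}) ∧
      ∀ s, g s = s → polar Q e s = 0 → polar Q f s = 0 → polar Q s u = 0 := by
  have a1 : polar Q e (g f) = 1 := by rw [← h.hef, ← polar_map (GZ_og hg) e f, he]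
  have a2 : Q (g f) = 0 := by rw [quad_map (GZ_og hg), h.hf]
  have a3 : polar Q e (g f - f - polar Q f (g f) • e) = 0 := by simp [a1, h.hef, h.ee]
  have a4 : g f - f - polar Q f (g f) • e ∈ perp 𝐁 Z :=
    Submodule.sub_mem _ (Submodule.sub_mem _ (GZ_perp hg h.fz) h.fz) (Submodule.smul_mem _ _ h.ez)
  refine ⟨_, a4, a3, mem_G2.2 ⟨mul_mem (inv_mem (eic_GZ hQ h5 h.ez a4)) hg, ?_, ?_⟩,
    fun s b1 b2 b3 => ?_⟩
  · rw [LinearEquiv.mul_apply, he]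
    exact inv_of_eq (eic_fix h.he a3 h.ee (by rwa [polar_comm]))
  · have : eic Q e (g f - f - polar Q f (g f) • e) f = g f := by
      rw [eic_apply h.he a3]
      simp only [quad_sub, quad_smul, a2, h.he, h.hf, h.hef, polar_sub_left, polar_smul_left,
        polar_smul_right, h.ff, polar_comm Q (g f), a1, h.hfe, smul_eq_mul]
      module
    exact inv_of_eq this
  · have : polar Q s (g f) = 0 := by rw [← b1, polar_map (GZ_og hg), polar_comm, b3]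
    simp [this, polar_comm Q s e, polar_comm Q s f, b2, b3]

/-- All weights of norm `c` have multiplicity at least `d`. -/
def Has (Q : QuadraticForm F W) (R : (W ≃ₗ[F] W) → End ℂ V) (Z : Submodule F W)
    (Y : Submodule ℂ V) (c : F) (d : ℕ) : Prop :=
  ∀ e l, Adm Q Z e l → l ∉ F ∙ e → Q l = c → d ≤ finrank ℂ ↥(Y ⊓ wz Q R Z e l)

theorem one_le_finrank (hx : x ∈ Y) (x0 : x ≠ 0) : 1 ≤ finrank ℂ Y :=
  finrank_pos_iff_exists_ne_zero.2 ⟨⟨x, hx⟩, fun e => x0 (congrArg Subtype.val e)⟩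

theorem exists_one (h1 : 1 ≤ finrank ℂ ↥(Y ⊓ wz Q R Z e l)) (h2 : finrank ℂ ↥(Y ⊓ wz Q R Z e l) < 2) :
    ∃ x, One Q R Z Y e l x := by
  obtain ⟨x, hx⟩ := finrank_pos_iff_exists_ne_zero.1 h1
  have x0 : (x : V) ≠ 0 := fun e => hx (Subtype.ext e)
  refine ⟨x, x.2.1, x0, x.2.2, fun v hv hv' => ?_⟩
  rw [Submodule.eq_of_le_of_finrank_le ((Submodule.span_singleton_le_iff_mem _ _).2 x.2)
    (by rw [finrank_span_singleton x0]; omega)]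
  exact ⟨hv, hv'⟩

namespace ORep

variable (h : ORep Q R) (hZ : ND (polarBilin Q) Z) (hY : ∀ g ∈ GZ Q Z, ∀ v ∈ Y, R g v ∈ Y)
include h hZ hY

theorem has (h6 : 6 ≤ finrank F (perp 𝐁 Z)) (hl : Adm Q Z e l) (hl' : l ∉ F ∙ e) {a : F}
    (ha : a ≠ 0) : Has Q R Z Y (a ^ 2 * Q l) (finrank ℂ ↥(Y ⊓ wz Q R Z e l)) := fun e' l' b1 b2 b3 => by
  have hs : (F ∙ (a⁻¹ • e')) = F ∙ e' := Submodule.span_singleton_smul_eq (inv_ne_zero ha).isUnit _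
  obtain ⟨g, hg, g1, g2⟩ := exists_pair h.nd h.h5 hZ h6 (e' := a⁻¹ • e') (l' := a⁻¹ • l') hl.he
    (by simp [quad_smul, b1.he]) hl.e0 (smul_ne_zero (inv_ne_zero ha) b1.e0) hl.ez
    (Submodule.smul_mem _ _ b1.ez) hl.lz (Submodule.smul_mem _ _ b1.lz) hl.el (by simp [b1.el]) hl'
    (by rwa [hs, Submodule.smul_mem_iff _ (inv_ne_zero ha)]) (by rw [quad_smul, b3]; field_simp)
  exact LinearMap.finrank_le_finrank_of_injective (f := (R g).restrict fun v hv =>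
    ⟨hY g hg v hv.1, wt_smul b1.he p1_perp (inv_ne_zero ha) (hs ▸ h.wz_map' hg g1 g2 hv.2)⟩)
    ((injective_iff_map_eq_zero _).2 fun v hv => Subtype.ext (by_contra fun e =>
      h.ne_zero hg.1 e (congrArg Subtype.val hv)))

theorem exists_nu (hx : One Q R Z Y e l x) (hm : Q m = 0) (m2 : polar Q e m = 0)
    (m3 : polar Q l m = 0) (m1 : m ∈ perp 𝐁 Z) :
    ∃ n, x ∈ wt Q R m (perp 𝐁 (Z ⊔ F ∙ e ⊔ F ∙ l ⊔ F ∙ m)) n ∧ ∀ k ∈ GZ Q Z, k e = e → k l = l →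
      ∀ c : F, c ≠ 0 → k m = c • m → ∀ u ∈ perp 𝐁 (Z ⊔ F ∙ e ⊔ F ∙ l ⊔ F ∙ m),
        c * polar Q n u = polar Q (k n) u := by
  have ch : ∀ k ∈ GZ Q Z, k e = e → k l = l → ∃ c : ℂ, R k x = c • x := fun k hk k1 k2 => by
    obtain ⟨c, hc⟩ := Submodule.mem_span_singleton.1
      (hx.uniq _ (hY k hk x hx.mem) (h.wz_map' hk k1 k2 hx.wt))
    exact ⟨c, hc.symm⟩
  obtain ⟨n, -, hn⟩ := h.exists_wt hZ (p1_le.trans (p1_le.trans p1_le)) hm p1_perp hx.ne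
    (A := perp 𝐁 (Z ⊔ F ∙ e ⊔ F ∙ l ⊔ F ∙ m)) fun u hu => by
      obtain ⟨u1, u2, u3, u4⟩ := mem_p3.1 hu
      exact ch _ (h.eg m1 u1) (eic_fix hm u4 (by rwa [polar_comm]) (by rwa [polar_comm]))
        (eic_fix hm u4 (by rwa [polar_comm]) (by rwa [polar_comm]))
  refine ⟨n, hn, fun k hk k1 k2 c hc k3 u hu => ?_⟩
  obtain ⟨θ, hθ⟩ := ch k hk k1 k2
  have a1 := h.wt_map hk.1 (A' := perp 𝐁 (Z ⊔ F ∙ e ⊔ F ∙ l ⊔ F ∙ m)) (fun u hu => by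
    obtain ⟨u1, u2, u3, u4⟩ := mem_p3.1 hu
    refine mem_p3.2 ⟨GZ_perp (inv_mem hk) u1, ?_, ?_, ?_⟩ <;>
      rw [← polar_map (GZ_og hk), apply_inv_apply]
    exacts [by rwa [k1], by rwa [k2], by simp [k3, u4]]) hn
  rw [k3, ← smul_inv_smul₀ hc (k n)] at a1
  have := wt_unique (h.ne_zero hk.1 hx.ne) (hθ ▸ Submodule.smul_mem _ θ hn)
    (wt_smul hm p1_perp hc a1) hu
  rw [this, polar_smul_left, smul_eq_mul, mul_inv_cancel_left₀ hc]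

theorem triv_tor (hq : 3 < Nat.card F) (hx : One Q R Z Y e l x) (hm : Q m = 0)
    (m1 : m ∈ perp 𝐁 (Z ⊔ F ∙ e ⊔ F ∙ l)) (m0 : m ∉ Z ⊔ F ∙ e ⊔ F ∙ l) {u : W}
    (hu : u ∈ perp 𝐁 (Z ⊔ F ∙ e ⊔ F ∙ l ⊔ F ∙ m)) : R (eic Q m u) x = x := by
  obtain ⟨n, hn, hn'⟩ := h.exists_nu hZ hY hx hm (mem_p1.1 (p1_le m1)).2 (mem_p1.1 m1).2
    (p1_le (p1_le m1))
  obtain ⟨m', hm'⟩ := exists_HZ h.nd hm m0 m1
  obtain ⟨a, a0, ha⟩ := exists_sq_ne_one' hq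
  obtain ⟨k, k1, k2, k3⟩ := exists_tor h.nd hm'.toHP a0
  have k4 : k ∈ GZ Q (Z ⊔ F ∙ e ⊔ F ∙ l) := ⟨k1, fun z hz => k3 z (pz m1 hz) (pz hm'.fz hz)⟩
  obtain ⟨k5, k6⟩ := mem_fixSub_sup_singleton.1 k4
  obtain ⟨k7, k8⟩ := mem_fixSub_sup_singleton.1 k5
  have b1 := hm'.sub_mem (p1_le hu)
  rw [p1_perp u hu, zero_smul, sub_zero] at b1
  have b2 := p2_le b1
  have b3 := hn' k k7 k8 k6 _ (pow_ne_zero 2 a0) k2 _ b2
  rw [← k3 _ (mem_p2.1 b1).2.1 (mem_p2.1 b1).2.2, polar_map (OmG_le k1),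
    k3 _ (mem_p2.1 b1).2.1 (mem_p2.1 b1).2.2] at b3
  have b4 : polar Q n (u - polar Q m' u • m) = 0 := by_contra fun e =>
    ha (mul_right_cancel₀ e (b3.trans (one_mul _).symm))
  rw [show u = (u - polar Q m' u • m) + polar Q m' u • m by abel, h.add_apply hm (p1_perp _ b2)
    (by simp [hm'.ee]), h.self_apply hm, hn _ b2, b4, AddChar.map_zero_eq_one, one_smul]

theorem triv_refl (hx : One Q R Z Y e l x) (hm : Q m = 0) (m2 : polar Q e m = 0)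
    (m3 : polar Q l m = 0) (m1 : m ∈ perp 𝐁 Z) {X : Submodule F W} (hX : ND 𝐁 X)
    (hX' : X ≤ perp 𝐁 (Z ⊔ F ∙ e ⊔ F ∙ l ⊔ F ∙ m))
    (hd : 3 ≤ finrank F X ∨ (2 ≤ finrank F X ∧ (∀ x ∈ X, Q x = 0 → x = 0) ∧
      ∀ r ∈ perp 𝐁 (Z ⊔ F ∙ e ⊔ F ∙ l ⊔ F ∙ m), r ∈ perp 𝐁 X → Q r = 0)) {u : W}
    (hu : u ∈ perp 𝐁 (Z ⊔ F ∙ e ⊔ F ∙ l ⊔ F ∙ m)) : R (eic Q m u) x = x := by
  obtain ⟨n, hn, hn'⟩ := h.exists_nu hZ hY hx hm m2 m3 m1
  have hW := isWittPair_quad Q h.nd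
  have H : ∀ y ∈ perp 𝐁 (Z ⊔ F ∙ e ⊔ F ∙ l ⊔ F ∙ m), ∀ y' ∈ perp 𝐁 (Z ⊔ F ∙ e ⊔ F ∙ l ⊔ F ∙ m),
      Q y ≠ 0 → Q y' = Q y → ∀ u ∈ perp 𝐁 (Z ⊔ F ∙ e ⊔ F ∙ l ⊔ F ∙ m),
      polar Q y n * polar Q y u = polar Q y' n * polar Q y' u := fun y hy y' hy' q q' u hu => by
    have k4 : (oRefl Q y).1 * (oRefl Q y').1 ∈ GZ Q (Z ⊔ F ∙ e ⊔ F ∙ l ⊔ F ∙ m) :=
      ⟨oRefl_mul_mem_OmG h.nd q q', fun z hz => by
        rw [LinearEquiv.mul_apply, oRefl_of_polar_eq_zero (pz hy' hz),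
          oRefl_of_polar_eq_zero (pz hy hz)]⟩
    obtain ⟨k3, k2⟩ := mem_fixSub_sup_singleton.1 k4
    obtain ⟨k5, k6⟩ := mem_fixSub_sup_singleton.1 k3
    obtain ⟨k7, k8⟩ := mem_fixSub_sup_singleton.1 k5
    have := hn' _ k7 k8 k6 1 one_ne_zero (by rw [k2, one_smul]) ((oRefl Q y).1 u)
      (by rw [oRefl_apply]; exact sub_mem hu (Submodule.smul_mem _ _ hy))
    rw [LinearEquiv.mul_apply, OG_polar, oRefl_apply, oRefl_apply, q'] at this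
    simp only [polar_sub_left, polar_sub_right, polar_smul_left, polar_smul_right, smul_eq_mul,
      polar_comm Q n y] at this
    exact mul_left_cancel₀ (inv_ne_zero q) (by linear_combination -this)
  have a1 := perp_of_refl h.nd hX (hd.imp_right fun h => ⟨h.1, h.2.1⟩) (n := n)
    fun y hy y' hy' q q' => sub_eq_zero.1 (Submodule.disjoint_def.1 hX _ (sub_mem (X.smul_mem _ hy)
      (X.smul_mem _ hy')) (mem_perp.2 fun z hz => by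
        simpa [polar_comm Q z, sub_eq_zero] using H y (hX' hy) y' (hX' hy') q q' z (hX' hz)))
  obtain ⟨a, ha, ha'⟩ := hW.exists_comp hX u
  have hr := sub_mem hu (hX' ha)
  have h2 : 2 ≤ finrank F X := by omega
  obtain ⟨b, hb, b0, qb⟩ : ∃ b ∈ X, b ≠ 0 ∧ Q (u - a + b) ≠ 0 := by
    by_cases q : Q (u - a) = 0
    · obtain ⟨b, hb, qb⟩ := exists_quad_eq_mem hX h2 (one_ne_zero (α := F))
      exact ⟨b, hb, fun e => by simp [e] at qb, by simp [quad_add _ _ b, q, qb, pz ha' hb]⟩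
    · obtain ⟨b, hb, b0, qb⟩ := exists_singular_mem Q (hd.resolve_right fun h => q (h.2.2 _ hr ha'))
      exact ⟨b, hb, b0, by simpa [quad_add _ _ b, qb, pz ha' hb] using q⟩
  obtain ⟨y, hy, qy⟩ := exists_quad_eq_mem hX h2 qb
  obtain ⟨z, hz, hz'⟩ : ∃ z ∈ X, polar Q z b ≠ 0 := by
    by_contra! hc
    exact b0 (Submodule.disjoint_def.1 hX b hb (mem_perp.2 hc))
  have a2 := H y (hX' hy) _ (add_mem hr (hX' hb)) (qy ▸ qb) qy.symm z (hX' hz)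
  rw [a1 y hy, zero_mul, polar_add_left, polar_add_left, a1 b hb, pz ha' hz, add_zero, zero_add,
    polar_sub_left, a1 a ha, sub_zero, polar_comm Q b] at a2
  rw [hn u hu, polar_comm, (mul_eq_zero.1 a2.symm).resolve_right hz', AddChar.map_zero_eq_one,
    one_smul]

theorem fix_of_one (h7 : 7 ≤ finrank F (perp 𝐁 Z)) (hG : 3 < Nat.card F ∨ ∃ k, Mn Q Z (k + 3))
    (hl : Adm Q Z e l) (q : Q l = 0) (hl' : l ∉ F ∙ e) (hx : One Q R Z Y e l x) :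
    ∀ g ∈ GZ Q Z, g e = e → g l = l → R g x = x := by
  have hW := isWittPair_quad Q h.nd
  obtain ⟨f, hf, fl⟩ := exists_HZ' h.nd hZ hl.he hl.e0 hl.ez hl.lz hl.el hl'
  have hZ1 := hf.nd h.nd hZ
  have l1 : l ∈ perp 𝐁 (Z ⊔ Submodule.span F {e, f}) := mem_p2.2 ⟨hl.lz, hl.el, fl⟩
  obtain ⟨l', hl2⟩ := exists_HZ h.nd q (hZ1.notMem l1 fun e => hl' (e ▸ zero_mem _)) l1
  have hZ2 := hl2.nd h.nd hZ1
  have d1 := hf.finrank h.nd
  have d2 := hl2.finrank h.nd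
  have le1 : Z ⊔ F ∙ e ⊔ F ∙ l ≤ Z ⊔ Submodule.span F {e, f} ⊔ Submodule.span F {l, l'} :=
    sup_le_sup (sup_le_sup_left (Submodule.span_mono (by simp)) _) (Submodule.span_mono (by simp))
  have a1 := GZ_le h.nd h.h5 hZ2 (by omega) (h.stab x) fun m hm w hw m0 qm mw => ⟨h.em _ _, by
    have hw' : w ∈ perp 𝐁 (Z ⊔ F ∙ e ⊔ F ∙ l ⊔ F ∙ m) := mem_p1.2 ⟨perp_anti le1 hw, mw⟩
    rcases hG with hG | ⟨k, hG⟩
    · exact h.triv_tor hZ hY hG hx qm (perp_anti le1 hm) (fun e => hZ2.notMem hm m0 (le1 e)) hw'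
    obtain ⟨m', hm'⟩ := exists_HZ h.nd qm (hZ2.notMem hm m0) hm
    have hZ3 := hm'.nd h.nd hZ2
    have hM := ((hG.step h.nd hf).step h.nd hl2).step h.nd hm'
    obtain ⟨m1, m2, -⟩ := mem_p2.1 hm
    refine h.triv_refl hZ hY hx qm (mem_p2.1 m1).2.1 m2 (mem_p2.1 m1).1 (hW.disjoint_perp_perp hZ3)
      (perp_anti (sup_le_sup le1 (Submodule.span_mono (by simp)))) ?_ hw'
    rcases k with _ | k
    · refine Or.inr ⟨hM.1.ge, hM.aniso, fun r hr hr' => ?_⟩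
      obtain ⟨r1, r2, r3, r4⟩ := mem_p3.1 hr
      have := eq_zero_of_perp h.nd hZ3 (hm'.sub_mem (hl2.sub_mem (hf.sub_mem r1))) fun y hy => by
        obtain ⟨y1, y2, y3⟩ := mem_p2.1 hy
        obtain ⟨y4, y5, y6⟩ := mem_p2.1 y1
        simp [pz hr' hy, y2, y3, y5, y6, (mem_p2.1 y4).2]
      have e1 : polar Q l e = 0 := by rw [polar_comm, hl.el]
      have e2 : polar Q m e = 0 := by rw [polar_comm, (mem_p2.1 m1).2.1]
      have e3 : polar Q m l = 0 := by rw [polar_comm, m2]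
      simp only [r2, r3, r4, e1, e2, e3, zero_smul, sub_zero, polar_sub_right, polar_smul_right,
        smul_zero, sub_sub, sub_eq_zero] at this
      rw [this]
      simp [quad_add, quad_smul, hl.he, q, qm, hl.el, m2, (mem_p2.1 m1).2.1, e2, e3]
    · exact Or.inl (by have := hM.1; omega)⟩
  intro g hg g1 g2
  obtain ⟨u, u1, u2, u3, u4⟩ := hf.reduce h.nd h.h5 hg g1
  have u5 := u4 l g2 hl.el fl
  obtain ⟨w, w1, w2, w3, -⟩ := hl2.reduce h.nd h.h5 u3 (by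
    rw [LinearEquiv.mul_apply, g2]
    exact inv_of_eq (eic_fix hl.he u2 hl.el (by rwa [polar_comm])))
  have b1 : eic Q e u ∈ h.stab x := ⟨h.em _ _, by
    rw [hx.wt u (mem_p1.2 ⟨u1, u2⟩), u5, AddChar.map_zero_eq_one, one_smul]⟩
  have b2 : eic Q l w ∈ h.stab x := ⟨h.em _ _, h.triv_refl hZ hY hx q hl.el hl2.ee hl.lz
    (hW.disjoint_perp_perp hZ2) (perp_anti (sup_le le1 (le_sup_of_le_right
      (Submodule.span_mono (by simp))))) (Or.inl (by omega))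
    (mem_p3.2 ⟨(mem_p2.1 w1).1, (mem_p2.1 w1).2.1, w2, w2⟩)⟩
  have := mul_mem b1 (mul_mem b2 (a1 w3))
  rw [mul_inv_cancel_left, mul_inv_cancel_left] at this
  exact this.2

/-- The basic case division. -/
theorem top (h7 : 7 ≤ finrank F (perp 𝐁 Z)) (hG : 3 < Nat.card F ∨ ∃ k, Mn Q Z (k + 3))
    (hl : Adm Q Z e l) (hl' : l ∉ F ∙ e) (hx : x ∈ Y) (x0 : x ≠ 0) (hw : x ∈ wz Q R Z e l) :
    (∃ c : F, c ≠ 0 ∧ ∀ a : F, a ≠ 0 → Has Q R Z Y (a ^ 2 * c) 1) ∨ Has Q R Z Y 0 2 ∨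
      Sit Q R Z Y := by
  have key : ∀ e l, Adm Q Z e l → l ∉ F ∙ e → ∀ d ≤ finrank ℂ ↥(Y ⊓ wz Q R Z e l), ∀ a : F, a ≠ 0 →
      Has Q R Z Y (a ^ 2 * Q l) d := fun e l b1 b2 d hd a ha e' l' c1 c2 c3 =>
    hd.trans (h.has hZ hY (by omega) b1 b2 ha e' l' c1 c2 c3)
  by_cases c1 : ∀ e l, Adm Q Z e l → ∀ v ∈ Y, v ≠ 0 → v ∈ wz Q R Z e l → Q l = 0
  swap
  · push Not at c1
    obtain ⟨e, l, b1, v, b2, b3, b4, b5⟩ := c1
    exact Or.inl ⟨_, b5, key e l b1 (fun e => by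
      obtain ⟨t, rfl⟩ := Submodule.mem_span_singleton.1 e
      simp [quad_smul, b1.he] at b5) 1 (one_le_finrank (Y := _ ⊓ _) ⟨b2, b4⟩ b3)⟩
  by_cases c2 : Has Q R Z Y 0 2
  · exact Or.inr (Or.inl c2)
  refine Or.inr (Or.inr ⟨hZ, hY, c1, fun e' l' b1 b2 b3 => ?_⟩)
  obtain ⟨x', hx'⟩ := exists_one (key e l hl hl' 1 (one_le_finrank (Y := _ ⊓ _) ⟨hx, hw⟩ x0) 1
    one_ne_zero e' l' b1 b3 (by rw [b2, c1 e l hl x hx x0 hw, mul_zero])) (not_le.1 fun c => c2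
      (by simpa [b2] using key e' l' b1 b3 2 c 1 one_ne_zero))
  exact ⟨x', hx', h.fix_of_one hZ hY h7 hG b1 b2 b3 hx'⟩

/-- Only non-singular weights: the fixed space of the radical is a non-trivial module. -/
theorem descend (h9 : 9 ≤ finrank F (perp 𝐁 Z)) (hef : HZ Q Z e f) {c : F} (hc : c ≠ 0)
    (h1 : Has Q R Z Y c 1) (h2 : ¬ Has Q R Z Y c 2) (h3 : ¬ Has Q R Z Y 0 1) :
    ∃ m μ x, Adm Q (Z ⊔ Submodule.span F {e, f}) m μ ∧ μ ∉ F ∙ m ∧ x ∈ Y ⊓ wz Q R Z e 0 ∧ x ≠ 0 ∧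
      x ∈ wz Q R (Z ⊔ Submodule.span F {e, f}) m μ := by
  have hW := isWittPair_quad Q h.nd
  have hZ1 := hef.nd h.nd hZ
  have d1 := hef.finrank h.nd
  obtain ⟨m, m0, m4, q⟩ := exists_singular_mem Q (U := perp 𝐁 (Z ⊔ Submodule.span F {e, f}))
    (by omega)
  obtain ⟨m', hm⟩ := exists_HZ h.nd q (hZ1.notMem m0 m4) m0
  have hZ2 := hm.nd h.nd hZ1
  have d2 := hm.finrank h.nd
  obtain ⟨μ, μ0, rfl⟩ := exists_quad_eq_mem (hW.disjoint_perp_perp hZ2) (by omega) hc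
  have μ1 := hm.notMem μ0 fun e => hc (by simp [e])
  have ad := hm.adm μ0
  have ad' := ad.anti le_sup_left
  obtain ⟨x, hx⟩ := exists_one (h1 m μ ad' μ1 rfl) (not_le.1 fun c => h2 fun e' l' b1 b2 b3 =>
    c.trans (h.has hZ hY (by omega) ad' μ1 one_ne_zero e' l' b1 b2 (by simp [b3])))
  obtain ⟨u₀, u1, u2, u3⟩ := exists_dual1 h.nd hZ1 m0 ad.lz μ1 1
  obtain ⟨Z', z1, z2, z3, z4⟩ := hZ2.exists_ext hW μ0
  obtain ⟨m1, m2, m3⟩ := mem_p2.1 m0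
  obtain ⟨a1, a2, a3⟩ := h.av_wt hef ad u1 u2 u3 hx.ne hx.wt fun u hu b1 b2 =>
    h.triv_refl hZ hY hx hef.he (by rwa [polar_comm]) (by rw [polar_comm, (mem_p2.1 ad.lz).2.1])
      hef.ez (hW.disjoint_perp_perp z3) (fun y hy => by
        obtain ⟨y1, y2, -⟩ := mem_p2.1 (perp_anti z1 hy)
        exact mem_p3.2 ⟨(mem_p2.1 y1).1, y2, mem_perp.1 hy μ z2, (mem_p2.1 y1).2.1⟩)
      (Or.inl (by omega)) (mem_p3.2 ⟨(mem_p2.1 hu).1, b1, b2, (mem_p2.1 hu).2.1⟩)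
  have a4 : av Q R e (F ∙ u₀) x ∈ Y := av_mem fun u hu => hY _ (h.eg hef.ez
    ((Submodule.span_singleton_le_iff_mem _ _).2 (mem_p2.1 u1).1 hu)) _ hx.mem
  refine ⟨m, μ, _, ad, μ1, ⟨a4, ?_⟩, fun e => a1 (by simp [e]), a2⟩
  have hle : perp 𝐁 (Z ⊔ Submodule.span F {e, f} ⊔ F ∙ m) ≤ perp 𝐁 (Z ⊔ F ∙ e) :=
    p1_le.trans p2_le
  refine h.le_of_wz hZ hef.he hef.ne_zero hef.ez
    (D := Y ⊓ wt Q R e (perp 𝐁 (Z ⊔ Submodule.span F {e, f} ⊔ F ∙ m)) 0)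
    (fun u hu y hy => ⟨hY _ (h.eg hef.ez (p1_le hu)) _ hy.1, h.wt_eic hef.he
      (fun w hw => p1_perp w (hle hw)) (p1_perp u hu) hy.2⟩) (fun l hl y hy y0 hw => ?_) ⟨a4, a3⟩
  have b2 := hef.sub_mem hl.lz
  rw [hl.el, zero_smul, sub_zero] at b2
  obtain ⟨t, ht⟩ := Submodule.mem_span_singleton.1 (mem_of_perp1 h.nd hZ1 m0 b2
    fun z hz hz' => by
      simp [wt_unique y0 (wt_anti hle hw) hy.2 (mem_p1.2 ⟨hz, hz'⟩), (mem_p2.1 hz).2.1])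
  have b3 : y ∈ wz Q R Z e (t • m) := wt_congr (fun u hu => by simp [ht, p1_perp u hu]) hw
  by_cases t0 : t = 0
  · rwa [t0, zero_smul] at b3
  have b4 := Submodule.smul_mem _ t m0
  exact (h3 fun e' l' b1 b2 b5 => (one_le_finrank (Y := _ ⊓ _) ⟨hy.1, b3⟩ y0).trans
    (h.has hZ hY (by omega) (hef.adm b4) (hef.notMem b4 (smul_ne_zero t0 m4)) one_ne_zero e' l' b1 b2
      (by simp [b5, quad_smul, q]))).elim

omit hY in
theorem count (hef : HZ Q Z e f) {c : F} {d : ℕ} (H : Has Q R Z Y c d) :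
    d * (vs Q (Z ⊔ Submodule.span F {e, f}) c).card + finrank ℂ ↥(Y ⊓ wz Q R Z e 0) ≤
      finrank ℂ Y :=
  h.sum_le hZ hef _ (fun _ hl => ⟨(mem_vs.1 hl).1, (mem_vs.1 hl).2.2⟩) fun l hl =>
    H e l (hef.adm (mem_vs.1 hl).1) (hef.notMem (mem_vs.1 hl).1 (mem_vs.1 hl).2.2) (mem_vs.1 hl).2.1

omit hY in
theorem count2 (hef : HZ Q Z e f) {c c' : F} (hc : c ≠ c') (H : Has Q R Z Y c 1)
    (H' : Has Q R Z Y c' 1) : (vs Q (Z ⊔ Submodule.span F {e, f}) c).card +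
      (vs Q (Z ⊔ Submodule.span F {e, f}) c').card ≤ finrank ℂ Y := by
  classical
  have := h.sum_le (Y := Y) hZ hef (vs Q (Z ⊔ Submodule.span F {e, f}) c ∪
    vs Q (Z ⊔ Submodule.span F {e, f}) c') (fun l hl => by
      rcases Finset.mem_union.1 hl with hl | hl <;> exact ⟨(mem_vs.1 hl).1, (mem_vs.1 hl).2.2⟩)
    (d := 1) fun l hl => by
      rcases Finset.mem_union.1 hl with hl | hl
      exacts [H e l (hef.adm (mem_vs.1 hl).1) (hef.notMem (mem_vs.1 hl).1 (mem_vs.1 hl).2.2)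
        (mem_vs.1 hl).2.1, H' e l (hef.adm (mem_vs.1 hl).1)
        (hef.notMem (mem_vs.1 hl).1 (mem_vs.1 hl).2.2) (mem_vs.1 hl).2.1]
  rw [Finset.card_union_of_disjoint (Finset.disjoint_left.2 fun l a b =>
    hc ((mem_vs.1 a).2.1.symm.trans (mem_vs.1 b).2.1))] at this
  omega

end ORep

end CF.OmDeg
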