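/-
Minimal degrees of orthogonal groups, part F: base cases and the inductions for modules with
singular weights of multiplicity one.
-/
import Cfsg.Agent.OmDeg.E
import Cfsg.Agent.Classical.MinDegSL2
import Cfsg.Agent.Classical.LowDim2

set_option autoImplicit false
set_option linter.unusedSectionVars false

namespace CF.OmDeg

open Module CF.Geom CF.Classical QuadraticMap

variable {F W V : Type*} [Field F] [Finite F] [AddCommGroup W] [Module F W] [FiniteDimensional F W]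
  [NormedAddCommGroup V] [InnerProductSpace ℂ V] [FiniteDimensional ℂ V]
  {Q : QuadraticForm F W} {Z A A' : Submodule F W} {R : (W ≃ₗ[F] W) → End ℂ V}
  {e f l l' m μ : W} {g : W ≃ₗ[F] W} {x y : V} {Y : Submodule ℂ V}

local notation "𝐁" => polarBilin Q

theorem cnt_comp (r : W) :
    cnt 𝐁 Q Z r = Nat.card {v // Q.comp (perp 𝐁 Z).subtype v = Q r} :=
  Nat.card_congr ⟨fun v => ⟨⟨v.1, v.2.1⟩, v.2.2⟩, fun v => ⟨v.1.1, v.1.2, v.2⟩,
    fun _ => rfl, fun _ => rfl⟩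

theorem card_vs_comp {c : F} (hc : c ≠ 0) :
    (vs Q Z c).card = Nat.card {v // Q.comp (perp 𝐁 Z).subtype v = c} := by
  rw [← Nat.card_eq_finsetCard]
  exact Nat.card_congr ⟨fun v => ⟨⟨v.1, (mem_vs.1 v.2).1⟩, (mem_vs.1 v.2).2.1⟩,
    fun v => ⟨v.1.1, mem_vs.2 ⟨v.1.2, v.2, fun e => hc (by rw [← v.2]; simp [e])⟩⟩,
    fun _ => rfl, fun _ => rfl⟩

/-- Plus type, detected by the number of singular vectors. -/
def Pl (Q : QuadraticForm F W) (Z : Submodule F W) (k : ℕ) : Prop :=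
  finrank F (perp (polarBilin Q) Z) = 2 * k + 2 ∧
    cnt (polarBilin Q) Q Z 0 + Nat.card F ^ k = Nat.card F ^ (2 * k + 1) + Nat.card F ^ (k + 1)

theorem Pl.step (hQ : LinearMap.Nondegenerate 𝐁) {k : ℕ} (h : Pl Q Z (k + 1)) (hef : HZ Q Z e f) :
    Pl Q (Z ⊔ Submodule.span F {e, f}) k := by
  have h1 := hef.finrank hQ
  have h2 := hef.cnt hQ 0
  have h3 : finrank F (perp 𝐁 (Z ⊔ Submodule.span F {e, f})) = 2 * k + 2 := by
    have := h.1; omega
  have hq : 1 ≤ Nat.card F := Nat.card_pos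
  refine ⟨h3, Nat.eq_of_mul_eq_mul_left hq ?_⟩
  have h4 := h.2
  rw [h2, h3] at h4
  zify [hq] at h4 ⊢
  linear_combination h4

theorem pl_of_isPlus (hQ : LinearMap.Nondegenerate 𝐁) (hZ : ND 𝐁 Z) {k : ℕ}
    (hd : finrank F (perp 𝐁 Z) = 2 * k + 2) (h : IsPlus (Q.comp (perp 𝐁 Z).subtype)) : Pl Q Z k := by
  refine ⟨hd, ?_⟩
  rw [cnt_comp, map_zero, card_singular_plus (nd_perp hQ hZ) h (m := k) hd]
  zify [Nat.one_le_pow _ _ (Nat.card_pos (α := F))]; ring

theorem mn_of_not_isPlus (hQ : LinearMap.Nondegenerate 𝐁) (hZ : ND 𝐁 Z) {k : ℕ}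
    (hd : finrank F (perp 𝐁 Z) = 2 * k + 2) (h : ¬ IsPlus (Q.comp (perp 𝐁 Z).subtype)) :
    Mn Q Z k := by
  refine ⟨hd, ?_⟩
  rw [cnt_comp, map_zero, card_singular_minus (nd_perp hQ hZ) h (m := k) hd]
  zify [Nat.one_le_pow _ _ (Nat.card_pos (α := F))]; ring

theorem not_pl_mn {k : ℕ} (h : Pl Q Z k) (h' : Mn Q Z k) : False := by
  have := Nat.pow_lt_pow_right (Finite.one_lt_card (α := F)) (Nat.lt_succ_self k)
  have := h.2
  have := h'.2
  simp only [Nat.succ_eq_add_one] at *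
  omega

theorem Pl.card_vs (hQ : LinearMap.Nondegenerate 𝐁) (hZ : ND 𝐁 Z) {k : ℕ} (h : Pl Q Z k) {c : F}
    (hc : c ≠ 0) : (vs Q Z c).card = Nat.card F ^ k * (Nat.card F ^ (k + 1) - 1) := by
  rw [card_vs_comp hc, card_quad_plus (nd_perp hQ hZ) (by_contra fun e =>
    not_pl_mn h (mn_of_not_isPlus hQ hZ h.1 e)) (m := k) h.1 hc]

theorem Mn.card_vs (hQ : LinearMap.Nondegenerate 𝐁) (hZ : ND 𝐁 Z) {k : ℕ} (h : Mn Q Z k) {c : F}
    (hc : c ≠ 0) : (vs Q Z c).card = Nat.card F ^ k * (Nat.card F ^ (k + 1) + 1) := by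
  rw [card_vs_comp hc, card_quad_minus (nd_perp hQ hZ)
    (fun e => not_pl_mn (pl_of_isPlus hQ hZ h.1 e) h) (m := k) h.1 hc]

theorem card_vs_odd (hQ : LinearMap.Nondegenerate 𝐁) (hZ : ND 𝐁 Z) {k : ℕ}
    (hd : finrank F (perp 𝐁 Z) = 2 * k + 1) : (vs Q Z 0).card + 1 = Nat.card F ^ (2 * k) := by
  rw [card_vs0, cnt_comp, map_zero, card_singular_odd (nd_perp hQ hZ) hd]

theorem exists_HZ_of (hQ : LinearMap.Nondegenerate 𝐁) (hZ : ND 𝐁 Z)
    (h3 : 3 ≤ finrank F (perp 𝐁 Z)) : ∃ e f, HZ Q Z e f := by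
  obtain ⟨m, m0, m4, q⟩ := exists_singular_mem Q h3
  exact ⟨m, exists_HZ hQ q (hZ.notMem m0 m4) m0⟩

theorem HZ.mem_vs (h : HZ Q Z e f) : e ∈ vs Q Z 0 := OmDeg.mem_vs.2 ⟨h.ez, h.he, h.ne_zero⟩

theorem sq_of_scale (hQ : LinearMap.Nondegenerate 𝐁) (h5 : 5 ≤ finrank F W) (hZ : ND 𝐁 Z)
    (h3 : finrank F (perp 𝐁 Z) = 3) (h : HZ Q Z e f) (hg : g ∈ GZ Q Z) {c : F}
    (hc : g e = c • e) : IsSquare c := by
  have hW := isWittPair_quad Q hQ
  have c0 : c ≠ 0 := fun e0 => h.ne_zero (by simpa [e0] using hc)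
  have a1 : polar Q e (c • g f) = 1 := by
    rw [polar_smul_right, ← polar_smul_left, ← hc, polar_map (GZ_og hg), h.hef]
  have a2 : Q (c • g f) = 0 := by rw [quad_smul, quad_map (GZ_og hg), h.hf, mul_zero]
  have a5 := Submodule.smul_mem _ c (GZ_perp hg h.fz)
  have a6 : g f = c⁻¹ • c • g f := (inv_smul_smul₀ c0 _).symm
  generalize c • g f = f₁ at a1 a2 a5 a6
  have a3 : polar Q e (f₁ - f - polar Q f f₁ • e) = 0 := by simp [a1, h.hef, h.ee]
  have a4 : f₁ - f - polar Q f f₁ • e ∈ perp 𝐁 Z :=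
    Submodule.sub_mem _ (Submodule.sub_mem _ a5 h.fz) (Submodule.smul_mem _ _ h.ez)
  have a7 : eic Q e (f₁ - f - polar Q f f₁ • e) f = f₁ := by
    rw [eic_apply h.he a3]
    simp only [quad_sub, quad_smul, a2, h.he, h.hf, h.hef, polar_sub_left, polar_smul_left,
      polar_smul_right, h.ff, polar_comm Q f₁, a1, h.hfe, smul_eq_mul]
    module
  have b0 := mul_mem (inv_mem (eic_GZ hQ h5 h.ez a4)) hg
  have b1 : ((eic Q e (f₁ - f - polar Q f f₁ • e))⁻¹ * g) e = c • e := by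
    rw [LinearEquiv.mul_apply, hc, map_smul, inv_of_eq (eic_fix h.he a3 h.ee (by rwa [polar_comm]))]
  have b2 : ((eic Q e (f₁ - f - polar Q f f₁ • e))⁻¹ * g) f = c⁻¹ • f := by
    rw [LinearEquiv.mul_apply, a6, map_smul, inv_of_eq a7]
  generalize (eic Q e (f₁ - f - polar Q f f₁ • e))⁻¹ * g = k at b0 b1 b2
  have hZ1 := h.nd hQ hZ
  have d1 := h.finrank hQ
  obtain ⟨y, y1, y2⟩ := exists_nonsingular_mem (hW.disjoint_perp_perp hZ1) (fun e0 => by
    rw [e0, finrank_bot] at d1; omega)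
  have y0 : y ≠ 0 := fun e => y2 (by simp [e])
  have y3 : (F ∙ y) = perp 𝐁 (Z ⊔ Submodule.span F {e, f}) := Submodule.eq_of_le_of_finrank_le
    ((Submodule.span_singleton_le_iff_mem _ _).2 y1) (by rw [finrank_span_singleton y0]; omega)
  have k1 : ∀ z ∈ Z ⊔ Submodule.span F {e, f}, ((oTor Q e f c).1 * k) z = z := fun z hz => by
    obtain ⟨z', hz', w, hw, rfl⟩ := Submodule.mem_sup.1 hz
    obtain ⟨a, b, rfl⟩ := Submodule.mem_span_pair.1 hw
    simp [b0.2 z' hz', b1, b2, oTor_of_perp (pz h.ez hz') (pz h.fz hz'), oTor_left h.he h.hf h.hef c0,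
      oTor_right h.he h.hf h.hef c0, smul_smul, c0]
  have k2 : (oTor Q e f c).1 * k ∈ OG Q := mul_mem (Subtype.prop _) (GZ_og b0)
  obtain ⟨a, ha⟩ := Submodule.mem_span_singleton.1 (y3.ge (mem_perp.2 fun z hz => by
    rw [polarBilin_eq, ← k1 z hz, polar_map k2]; exact mem_perp.1 y1 z hz :
      ((oTor Q e f c).1 * k) y ∈ _))
  have k3 := quad_map k2 y
  rw [← ha, quad_smul] at k3
  have H := fun vs => prod_oRefl_mem_commutator_iff hQ (reflSub_eq_top hQ (Or.inr (by omega))) vs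
  have q1 := quad_hyp_sub h.he h.hf h.hef
  rcases sq_eq_one_iff_of_ne_zero' (mul_right_cancel₀ y2 (k3.trans (one_mul _).symm)) with rfl | rfl
  · have : (oTor Q e f c).1 * k = 1 := ext_of_perp hQ hZ1 k1 fun x hx => by
      obtain ⟨t, rfl⟩ := Submodule.mem_span_singleton.1 (y3.ge hx)
      rw [map_smul, ← ha, one_smul]; rfl
    have := (H [e - c • f, e - (1 : F) • f] (by simp [q1, c0, -one_smul])).1 (by
      simpa [← mem_OmG, ← eq_inv_of_mul_eq_one_left this, oTor, -one_smul] using inv_mem b0.1)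
    simpa [q1, -one_smul] using this.2
  · have : (oTor Q e f c).1 * k = (oRefl Q y).1 := ext_of_perp hQ hZ1
      (fun z hz => by rw [k1 z hz, oRefl_of_polar_eq_zero (pz y1 hz)]) fun x hx => by
      obtain ⟨t, rfl⟩ := Submodule.mem_span_singleton.1 (y3.ge hx)
      rw [map_smul, ← ha, map_smul, oRefl_self y2, neg_one_smul]
    have e1 : k⁻¹ = (oRefl Q y).1 * (oTor Q e f c).1 := by
      rw [← oRefl_inv', ← this]; group
    have := (H [y, e - c • f, e - (1 : F) • f] (by simp [q1, c0, y2, -one_smul])).1 (by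
      simpa [← mem_OmG, e1, oTor, -one_smul] using inv_mem b0.1)
    exact absurd this.1 (by simp; decide)

theorem card_two_le : (2 : ℤ) ≤ Nat.card F := by exact_mod_cast Finite.one_lt_card (α := F)

theorem pos_of (k : ℕ) (hd : finrank F (perp 𝐁 Z) = k + 2)
    (h : ((vs Q Z 0).card : ℤ) < 2 * ((Nat.card F - 1) * Nat.card F ^ k)) : ORep.Pos Q Z := by
  unfold ORep.Pos
  rw [hd, Nat.add_sub_cancel]
  zify [show 1 ≤ Nat.card F from Nat.card_pos]
  exact h

namespace ORep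

variable (h : ORep Q R)
include h

theorem Sit.step1 (S : Sit Q R Z Y) (hef : HZ Q Z e f) (hp : Pos Q (Z ⊔ Submodule.span F {e, f}))
    (h3 : 3 ≤ finrank F (perp 𝐁 (Z ⊔ Submodule.span F {e, f}))) :
    ∃ Y', Sit Q R (Z ⊔ Submodule.span F {e, f}) Y' ∧
      cnt 𝐁 Q (Z ⊔ Submodule.span F {e, f}) 0 + finrank ℂ Y' ≤ finrank ℂ Y := by
  obtain ⟨m, m', hm⟩ := exists_HZ_of h.nd (hef.nd h.nd S.nd) h3
  simpa [← card_vs0] using Sit.step h S hef hp {m} (by simpa using hm.mem_vs) (by simp)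

theorem Sit.minus {k : ℕ} (S : Sit Q R Z Y) (hM : Mn Q Z (k + 1)) :
    ((Nat.card F : ℤ) ^ (k + 2) + 1) * (Nat.card F ^ (k + 1) - Nat.card F) ≤
      (Nat.card F ^ 2 - 1) * finrank ℂ Y := by
  have hq := card_two_le (F := F)
  induction k generalizing Z Y with
  | zero => simp only [zero_add, pow_one, sub_self, mul_zero]; exact mul_nonneg (by nlinarith) (by simp)
  | succ k ih =>
    obtain ⟨e, f, hef⟩ := exists_HZ_of h.nd S.nd (by have := hM.1; omega)
    have hM' := hM.step h.nd hef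
    have a1 := hM'.2
    have a2 := card_vs0 (Q := Q) (Z := Z ⊔ Submodule.span F {e, f})
    have a3 : (1 : ℤ) ≤ Nat.card F ^ (k + 1) := one_le_pow₀ (by omega)
    zify at a1 a2
    obtain ⟨Y', S', h1⟩ := Sit.step1 h S hef (pos_of (2 * (k + 1)) hM'.1 (by
      simp only [pow_add, pow_mul', pow_one] at a1 a3 ⊢
      generalize (Nat.card F : ℤ) ^ k * Nat.card F = a at *
      nlinarith [mul_nonneg (sub_nonneg.2 hq) (sq_nonneg a)])) (by have := hM'.1; omega)
    have h2 := ih S' hM'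
    have h3 := mul_le_mul_of_nonneg_left (Int.ofNat_le.2 h1)
      (show (0 : ℤ) ≤ Nat.card F ^ 2 - 1 by nlinarith)
    push_cast at h3
    simp only [pow_add, pow_mul', pow_one] at a1 h2 ⊢
    generalize (Nat.card F : ℤ) ^ k = a at *
    linear_combination h2 + h3 - ((Nat.card F : ℤ) ^ 2 - 1) * a1

theorem Sit.odd {k : ℕ} (S : Sit Q R Z Y) (hd : finrank F (perp 𝐁 Z) = 2 * (k + 2) + 1) :
    (Nat.card F : ℤ) ^ (2 * (k + 2)) - 1 ≤ (Nat.card F ^ 2 - 1) * finrank ℂ Y := by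
  classical
  have hq := card_two_le (F := F)
  have key : ∀ {Z e f k}, ND 𝐁 Z → HZ Q Z e f → finrank F (perp 𝐁 Z) = 2 * (k + 2) + 1 →
      Pos Q (Z ⊔ Submodule.span F {e, f}) := fun {Z e f k} hZ hef hd => by
    have d1 := hef.finrank h.nd
    have a1 := card_vs_odd h.nd (hef.nd h.nd hZ) (k := k + 1) (by omega)
    zify at a1
    refine pos_of (2 * k + 1) (by omega) ?_
    simp only [pow_add, pow_mul', pow_one] at a1 ⊢
    nlinarith [mul_nonneg (sub_nonneg.2 hq) (mul_nonneg (sq_nonneg ((Nat.card F : ℤ) ^ k))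
      (show (0 : ℤ) ≤ Nat.card F by omega))]
  induction k generalizing Z Y with
  | zero =>
    obtain ⟨e, f, hef⟩ := exists_HZ_of h.nd S.nd (by omega)
    have d1 := hef.finrank h.nd
    have hZ1 := hef.nd h.nd S.nd
    obtain ⟨m, m', hm⟩ := exists_HZ_of h.nd hZ1 (by omega)
    obtain ⟨c, hc⟩ := exists_not_isSquare (two_ne_zero_of_odd_finrank (nd_perp h.nd S.nd) ⟨_, hd⟩)
    have c0 : c ≠ 0 := fun e => hc (e ▸ IsSquare.zero)
    obtain ⟨Y', -, h1⟩ := Sit.step h S hef (key S.nd hef hd) {m, c • m} (fun a ha => by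
      rcases Finset.mem_insert.1 ha with rfl | ha
      · exact hm.mem_vs
      · rw [Finset.mem_singleton.1 ha]
        exact mem_vs.2 ⟨Submodule.smul_mem _ _ hm.ez, by simp [quad_smul, hm.he],
          smul_ne_zero c0 hm.ne_zero⟩) fun a ha b hb g hg e1 => by
      simp only [Finset.mem_insert, Finset.mem_singleton] at ha hb
      rcases ha with rfl | rfl <;> rcases hb with rfl | rfl
      · rfl
      · exact (hc (sq_of_scale h.nd h.h5 hZ1 (by omega) hm hg e1)).elim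
      · exact (hc (sq_of_scale h.nd h.h5 hZ1 (by omega) hm (inv_mem hg) (inv_of_eq e1))).elim
      · rfl
    have a1 := card_vs_odd h.nd hZ1 (k := 1) (by omega)
    rw [Finset.card_pair (show m ≠ c • m from fun e =>
      hc (sq_of_scale h.nd h.h5 hZ1 (by omega) hm (one_mem _) e))] at h1
    have h2 : (Nat.card F : ℤ) ^ 2 + 1 ≤ finrank ℂ Y := by
      have : Nat.card F ^ 2 + 1 ≤ finrank ℂ Y := by simp only [mul_one] at a1; omega
      exact_mod_cast this
    simp only [zero_add]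
    linear_combination mul_le_mul_of_nonneg_left h2 (show (0 : ℤ) ≤ Nat.card F ^ 2 - 1 by nlinarith)
  | succ k ih =>
    obtain ⟨e, f, hef⟩ := exists_HZ_of h.nd S.nd (by omega)
    have d1 := hef.finrank h.nd
    obtain ⟨Y', S', h1⟩ := Sit.step1 h S hef (key S.nd hef hd) (by omega)
    have h2 := ih S' (by omega)
    rw [← card_vs0, card_vs_odd h.nd S'.nd (k := k + 2) (by omega)] at h1
    have h3 := mul_le_mul_of_nonneg_left (Int.ofNat_le.2 h1)
      (show (0 : ℤ) ≤ Nat.card F ^ 2 - 1 by nlinarith)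
    push_cast at h3
    linear_combination h2 + h3

theorem Sit.six (hq : 3 < Nat.card F) (S : Sit Q R Z Y) (hP : Pl Q Z 2) :
    Nat.card F ^ 4 - Nat.card F ≤ (Nat.card F - 1) * finrank ℂ Y := by
  have := Fintype.ofFinite F
  have hQ' := nd_perp h.nd S.nd
  obtain ⟨φ, h1, h2⟩ := exists_ext h.nd S.nd
  obtain ⟨ε, hε⟩ := IsPlus.exists_equiv_qPlus hQ' (by_contra fun e =>
    not_pl_mn hP (mn_of_not_isPlus h.nd S.nd hP.1 e)) (m := 3) hP.1
  obtain ⟨σ, hσ, -⟩ := exists_spin_six_plus (F := F)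
  let Θ := φ.comp ((ogCongr ε hε).symm.toMonoidHom.comp σ)
  have hΘ : ∀ g, (Θ g).1 ∈ GZ Q Z := fun g => ⟨mem_OmG.2 (map_commutator_mem φ
    (map_commutator_mem (ogCongr ε hε).symm.toMonoidHom (hσ.le ⟨g, rfl⟩))), h2 _⟩
  let ρ : Matrix.SpecialLinearGroup (Fin 4) F →* End ℂ Y :=
    { toFun := fun g => (R (Θ g).1).restrict (S.inv _ (hΘ g))
      map_one' := LinearMap.ext fun v => Subtype.ext (by
        change R (Θ 1).1 v = v
        rw [map_one]; exact h.one_apply _)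
      map_mul' := fun a b => LinearMap.ext fun v => Subtype.ext (by
        change R (Θ (a * b)).1 v = _
        rw [map_mul]; exact h.mul_apply (hΘ a).1 (hΘ b).1 v) }
  obtain ⟨e, f, hef⟩ := exists_HZ_of h.nd S.nd (by have := hP.1; omega)
  have d1 := hef.finrank h.nd
  obtain ⟨m, m', hm⟩ := exists_HZ_of h.nd (hef.nd h.nd S.nd) (by have := hP.1; omega)
  obtain ⟨x, hx, -⟩ := S.one e m (hef.adm hm.ez) hm.he (hef.notMem hm.ez hm.ne_zero)
  obtain ⟨s, hs⟩ := exists_psi_ne F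
  have u1 := mem_p2.1 (Submodule.smul_mem _ s hm.fz)
  let t : OG (Q.comp (perp 𝐁 Z).subtype) := eichler (u := ⟨e, hef.ez⟩) (w := ⟨s • m', u1.1⟩)
    hef.he u1.2.1
  obtain ⟨g, hg⟩ := hσ.ge (map_commutator_mem (ogCongr ε hε).toMonoidHom
    (eichlerSub_le_commutator hQ' (Or.inr (by have := hP.1; omega)) (eichler_mem _ _ : t ∈ _)))
  have e1 : (Θ g).1 = eic Q e (s • m') := by
    have : Θ g = φ t := by simp [Θ, hg, t]
    rw [this]
    exact ext_of_perp h.nd S.nd (fun z hz => by rw [h2 _ z hz, (h.eg hef.ez u1.1).2 z hz])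
      fun x hx => by rw [h1 _ ⟨x, hx⟩, eic_apply hef.he u1.2.1]; simp only [t, eichler_apply]; rfl
  refine sl_bound_mat (by norm_num) (by omega) (by omega) ρ (g := g) fun e2 => hs ?_
  have e3 : R (Θ g).1 x = x := congrArg Subtype.val (DFunLike.congr_fun e2 (⟨x, hx.mem⟩ : Y))
  rw [e1, hx.wt _ (mem_p1.2 ⟨u1.1, u1.2.1⟩), polar_smul_right, hm.hef, smul_eq_mul, mul_one] at e3
  exact eq_of_smul_eq hx.ne (e3.trans (one_smul _ _).symm)

theorem Sit.plus (hq3 : 3 < Nat.card F) {k : ℕ} (S : Sit Q R Z Y) (hP : Pl Q Z (k + 2)) :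
    ((Nat.card F : ℤ) ^ (k + 3) - 1) * (Nat.card F ^ (k + 2) + Nat.card F) ≤
      (Nat.card F ^ 2 - 1) * finrank ℂ Y := by
  have hq : (4 : ℤ) ≤ Nat.card F := by exact_mod_cast hq3
  induction k generalizing Z Y with
  | zero =>
    have := Sit.six h hq3 S hP
    zify [show 1 ≤ Nat.card F by omega, Nat.le_self_pow (show 4 ≠ 0 by norm_num) (Nat.card F)]
      at this
    simp only [zero_add]
    linear_combination mul_le_mul_of_nonneg_left this (show (0 : ℤ) ≤ Nat.card F + 1 by omega)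
  | succ k ih =>
    obtain ⟨e, f, hef⟩ := exists_HZ_of h.nd S.nd (by have := hP.1; omega)
    have hM' := hP.step h.nd hef
    have a1 := hM'.2
    have a2 := card_vs0 (Q := Q) (Z := Z ⊔ Submodule.span F {e, f})
    have a3 : (Nat.card F : ℤ) ≤ Nat.card F ^ (k + 2) := le_self_pow₀ (by omega) (by omega)
    zify at a1 a2
    obtain ⟨Y', S', h1⟩ := Sit.step1 h S hef (pos_of (2 * (k + 2)) hM'.1 (by
      rw [pow_succ _ (2 * _), pow_succ _ (k + 2), pow_mul'] at a1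
      rw [pow_mul']
      generalize (Nat.card F : ℤ) ^ (k + 2) = a at *
      nlinarith [mul_nonneg (sub_nonneg.2 hq) (sq_nonneg a), mul_nonneg (sub_nonneg.2 a3)
        (show 0 ≤ a by omega)])) (by have := hM'.1; omega)
    have h2 := ih S' hM'
    have h3 := mul_le_mul_of_nonneg_left (Int.ofNat_le.2 h1)
      (show (0 : ℤ) ≤ Nat.card F ^ 2 - 1 by nlinarith)
    push_cast at h3
    simp only [pow_add, pow_mul', pow_one] at a1 h2 ⊢
    generalize (Nat.card F : ℤ) ^ k = a at *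
    linear_combination h2 + h3 - ((Nat.card F : ℤ) ^ 2 - 1) * a1

end ORep

end CF.OmDeg
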