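/-
Minimal degrees of orthogonal groups, part G: the lower bounds.
-/
import Cfsg.Agent.OmDeg.F
import Cfsg.Agent.Classical.MinDegSp

set_option autoImplicit false
set_option linter.unusedSectionVars false

namespace CF.OmDeg

open Module CF.Geom CF.Classical QuadraticMap
open scoped ComplexConjugate

variable {F W V : Type*} [Field F] [Finite F] [AddCommGroup W] [Module F W] [FiniteDimensional F W]
  [NormedAddCommGroup V] [InnerProductSpace ℂ V] [FiniteDimensional ℂ V]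
  {Q : QuadraticForm F W} {Z A A' : Submodule F W} {R : (W ≃ₗ[F] W) → End ℂ V}
  {e f l l' m μ : W} {g : W ≃ₗ[F] W} {x y : V} {Y : Submodule ℂ V}

local notation "𝐁" => polarBilin Q

theorem finrank_perp_bot : finrank F (perp 𝐁 ⊥) = finrank F W := by rw [perp_bot, finrank_top]

namespace ORep

variable (h : ORep Q R)
include h

theorem exists_weight (hg : g ∈ OmG Q) (hne : R g ≠ 1) :
    ∃ e l x, Adm Q ⊥ e l ∧ l ∉ F ∙ e ∧ x ≠ 0 ∧ x ∈ wz Q R ⊥ e l := by
  by_contra! H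
  refine hne (LinearMap.ext fun v => (GZ_le h.nd h.h5 nd_bot (by
    rw [finrank_perp_bot]; have := h.h5; omega) (h.stab v) (fun u hu w hw u0 qu uw => ⟨h.em _ _, ?_⟩)
      ⟨hg, by simp⟩).2)
  refine h.le_of_wz nd_bot qu u0 hu (D := ⊤) (P := LinearMap.eqLocus (R (eic Q u w)) 1)
    (fun _ _ _ _ => trivial) (fun l hl x _ x0 hx => ?_) (Submodule.mem_top (x := v))
  obtain ⟨c, rfl⟩ := Submodule.mem_span_singleton.1 (by_contra fun e => H u l x hl e x0 hx)
  have := hx w (mem_p1.2 ⟨hw, uw⟩)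
  rw [polar_smul_left, uw, smul_zero, AddChar.map_zero_eq_one, one_smul] at this
  exact this

theorem odd (hq3 : 3 < Nat.card F) {k : ℕ} (hd : finrank F W = 2 * (k + 3) + 1) (hg : g ∈ OmG Q)
    (hne : R g ≠ 1) : (Nat.card F : ℤ) ^ (2 * (k + 3)) - 1 ≤ (Nat.card F ^ 2 - 1) * finrank ℂ V := by
  have hq : (4 : ℤ) ≤ Nat.card F := by exact_mod_cast hq3
  obtain ⟨e, l, x, hl, hl', x0, hx⟩ := h.exists_weight hg hne
  rw [← finrank_perp_bot (Q := Q)] at hd
  rw [← finrank_top ℂ V]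
  obtain ⟨f, hef⟩ := exists_HZ h.nd hl.he (by simpa using hl.e0) hl.ez
  have d1 := hef.finrank h.nd
  have hZ1 := hef.nd h.nd nd_bot
  have hY : ∀ g ∈ GZ Q ⊥, ∀ v ∈ (⊤ : Submodule ℂ V), R g v ∈ (⊤ : Submodule ℂ V) :=
    fun _ _ _ _ => trivial
  have a3 : (Nat.card F : ℤ) ^ 2 ≤ Nat.card F ^ (k + 2) := pow_le_pow_right₀ (by omega) (by omega)
  have a4 : (0 : ℤ) ≤ Nat.card F ^ 2 - 16 := by nlinarith
  have a5 : (Nat.card F : ℤ) ^ (2 * (k + 3)) = Nat.card F ^ 2 * (Nat.card F ^ (k + 2)) ^ 2 := by ring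
  rcases h.top nd_bot hY (by omega) (.inl hq3) hl hl' trivial x0 hx with ⟨c, c0, H⟩ | H | S
  · obtain ⟨a, a0, ha⟩ := exists_sq_ne_one' hq3
    have h1 := h.count2 nd_bot hef (fun e => ha (by simpa using (mul_right_cancel₀ c0 e).symm))
      (H 1 one_ne_zero) (H a a0)
    have h2 := (card_quad_odd (nd_perp h.nd hZ1) (m := k + 2) (by omega) (by omega)).1
    rw [card_vs_comp (by simp [c0]), card_vs_comp (by simp [c0, a0])] at h1
    have h3 := (add_le_add (h2 _) (h2 _)).trans h1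
    zify [Nat.one_le_pow _ _ (Nat.card_pos (α := F))] at h3
    rw [a5]
    generalize (Nat.card F : ℤ) ^ (k + 2) = a at *
    nlinarith [mul_le_mul_of_nonneg_left h3 (show (0 : ℤ) ≤ Nat.card F ^ 2 - 1 by omega),
      mul_nonneg (show 0 ≤ a by omega) (mul_nonneg (show 0 ≤ a - 16 by omega)
        (show (0 : ℤ) ≤ Nat.card F ^ 2 - 2 by omega)), mul_nonneg a4 (show 0 ≤ a by omega)]
  · have h1 := h.count nd_bot hef H
    have h2 := card_vs_odd h.nd hZ1 (k := k + 2) (by omega)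
    rw [pow_mul'] at h2
    zify at h1 h2
    have h3 : 2 * (((Nat.card F : ℤ) ^ (k + 2)) ^ 2 - 1) ≤ finrank ℂ (⊤ : Submodule ℂ V) := by omega
    rw [a5]
    generalize (Nat.card F : ℤ) ^ (k + 2) = a at *
    nlinarith [mul_le_mul_of_nonneg_left h3 (show (0 : ℤ) ≤ Nat.card F ^ 2 - 1 by omega),
      mul_nonneg (show 0 ≤ a ^ 2 - 4 by nlinarith) (show (0 : ℤ) ≤ Nat.card F ^ 2 - 2 by omega)]
  · exact Sit.odd h S (k := k + 1) hd

theorem plus (hq3 : 3 < Nat.card F) {k : ℕ} (hP : Pl Q ⊥ (k + 3)) (hg : g ∈ OmG Q) (hne : R g ≠ 1) :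
    ((Nat.card F : ℤ) ^ (k + 4) - 1) * (Nat.card F ^ (k + 3) + Nat.card F) ≤
      (Nat.card F ^ 2 - 1) * finrank ℂ V := by
  have hq : (4 : ℤ) ≤ Nat.card F := by exact_mod_cast hq3
  obtain ⟨e, l, x, hl, hl', x0, hx⟩ := h.exists_weight hg hne
  rw [← finrank_top ℂ V]
  obtain ⟨f, hef⟩ := exists_HZ h.nd hl.he (by simpa using hl.e0) hl.ez
  have hP' := hP.step h.nd hef
  have hZ1 := hef.nd h.nd nd_bot
  have hY : ∀ g ∈ GZ Q ⊥, ∀ v ∈ (⊤ : Submodule ℂ V), R g v ∈ (⊤ : Submodule ℂ V) :=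
    fun _ _ _ _ => trivial
  have a3 : (Nat.card F : ℤ) ^ 2 ≤ Nat.card F ^ (k + 2) := pow_le_pow_right₀ (by omega) (by omega)
  have a4 : (0 : ℤ) ≤ Nat.card F ^ 2 - 16 := by nlinarith
  rcases h.top nd_bot hY (by have := hP.1; omega) (.inl hq3) hl hl' trivial x0 hx with
    ⟨c, c0, H⟩ | H | S
  · obtain ⟨a, a0, ha⟩ := exists_sq_ne_one' hq3
    have h1 := h.count2 nd_bot hef (fun e => ha (by simpa using (mul_right_cancel₀ c0 e).symm))
      (H 1 one_ne_zero) (H a a0)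
    rw [hP'.card_vs h.nd hZ1 (by simp [c0]), hP'.card_vs h.nd hZ1 (by simp [c0, a0])] at h1
    zify [Nat.one_le_pow _ _ (Nat.card_pos (α := F))] at h1
    rw [pow_succ _ (k + 3), pow_succ _ (k + 2)] at *
    generalize (Nat.card F : ℤ) ^ (k + 2) = a at *
    generalize (Nat.card F : ℤ) = q at *
    have b1 : 0 ≤ (q ^ 3 - 2 * q) * a - (q ^ 3 + 2 * q ^ 2) := by
      nlinarith [mul_nonneg (show 0 ≤ a - 16 by omega) (show 0 ≤ q ^ 3 - 2 * q by nlinarith)]
    nlinarith [mul_le_mul_of_nonneg_left h1 (show 0 ≤ q ^ 2 - 1 by omega),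
      mul_nonneg (show 0 ≤ a by omega) b1, mul_nonneg (show 0 ≤ a by omega) (show 0 ≤ q by omega)]
  · have h1 := h.count nd_bot hef H
    have h2 := hP'.2
    rw [← card_vs0, pow_succ _ (2 * _), pow_mul', pow_succ _ (k + 2)] at h2
    zify at h1 h2
    rw [pow_succ _ (k + 3), pow_succ _ (k + 2)]
    generalize (Nat.card F : ℤ) ^ (k + 2) = a at *
    generalize (Nat.card F : ℤ) = q at *
    have h3 : 2 * (a ^ 2 * q + a * q - a - 1) ≤ finrank ℂ (⊤ : Submodule ℂ V) := by omega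
    have b1 : 0 ≤ (q ^ 3 - 2 * q) * a - 2 := by
      nlinarith [mul_nonneg (show 0 ≤ a - 16 by omega) (show 0 ≤ q ^ 3 - 2 * q by nlinarith)]
    nlinarith [mul_le_mul_of_nonneg_left h3 (show 0 ≤ q ^ 2 - 1 by omega),
      mul_nonneg (show 0 ≤ a by omega) b1, mul_nonneg (show 0 ≤ a by omega)
        (show 0 ≤ q ^ 3 - 2 * q ^ 2 - q by nlinarith)]
  · exact Sit.plus h hq3 S (k := k + 1) hP

theorem minus_aux {k : ℕ} (hM : Mn Q Z (k + 3)) (hZ : ND 𝐁 Z)
    (hY : ∀ g ∈ GZ Q Z, ∀ v ∈ Y, R g v ∈ Y) (hl : Adm Q Z e l) (hl' : l ∉ F ∙ e) (hx : x ∈ Y)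
    (x0 : x ≠ 0) (hw : x ∈ wz Q R Z e l) :
    ((Nat.card F : ℤ) ^ (k + 4) + 1) * (Nat.card F ^ (k + 3) - Nat.card F) ≤
      (Nat.card F ^ 2 - 1) * finrank ℂ Y := by
  have hq := card_two_le (F := F)
  induction k using Nat.strong_induction_on generalizing Z Y e l x with | _ k ih =>
  obtain ⟨f, hef⟩ := exists_HZ h.nd hl.he (hZ.notMem hl.ez hl.e0) hl.ez
  have hM' := hM.step h.nd hef
  have hZ1 := hef.nd h.nd hZ
  have a3 : (Nat.card F : ℤ) ^ 2 ≤ Nat.card F ^ (k + 2) := pow_le_pow_right₀ (by omega) (by omega)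
  have a4 : (0 : ℤ) ≤ Nat.card F ^ 2 - 4 := by nlinarith
  have a5 := hM'.2
  rw [← card_vs0, pow_succ _ (2 * _), pow_mul', pow_succ _ (k + 2)] at a5
  zify at a5
  have a6 : (0 : ℤ) ≤ Nat.card F ^ 3 - 2 * Nat.card F - 4 := by nlinarith
  rcases h.top hZ hY (by have := hM.1; omega) (.inr ⟨k, hM⟩) hl hl' hx x0 hw with
    ⟨c, c0, H⟩ | H | S
  · have H1 : Has Q R Z Y c 1 := by simpa using H 1 one_ne_zero
    have a7 := hM'.card_vs h.nd hZ1 c0
    zify at a7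
    have h1 := h.count hZ hef H1
    rcases k with _ | k
    · zify at h1
      rw [a7] at h1
      simp only [zero_add, Nat.reduceAdd] at h1 ⊢
      generalize (Nat.card F : ℤ) = q at *
      have h3 : q ^ 2 * (q ^ 3 + 1) ≤ finrank ℂ Y := by omega
      nlinarith [mul_le_mul_of_nonneg_left h3 (show 0 ≤ q ^ 2 - 1 by omega),
        mul_nonneg (mul_nonneg (show 0 ≤ q by omega) (show 0 ≤ q + 1 by omega)) (sq_nonneg (q - 1))]
    by_cases H2 : Has Q R Z Y c 2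
    · have h2 := h.count hZ hef H2
      zify at h2
      rw [a7] at h2
      rw [pow_succ _ (k + 1 + 3), pow_succ _ (k + 1 + 2)] at *
      generalize (Nat.card F : ℤ) ^ (k + 1 + 2) = a at *
      generalize (Nat.card F : ℤ) = q at *
      have h3 : 2 * (a * (a * q + 1)) ≤ finrank ℂ Y := by omega
      nlinarith [mul_le_mul_of_nonneg_left h3 (show 0 ≤ q ^ 2 - 1 by omega),
        mul_nonneg (sq_nonneg a) a6, mul_nonneg (show 0 ≤ a by omega) a6,
        mul_nonneg (show 0 ≤ a by omega) a4, mul_nonneg (show 0 ≤ a by omega) (show 0 ≤ q by omega)]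
    by_cases H3 : Has Q R Z Y 0 1
    · have h2 := h.count2 hZ hef c0 H1 H3
      zify at h2
      rw [a7] at h2
      rw [pow_succ _ (k + 1 + 3), pow_succ _ (k + 1 + 2)] at *
      generalize (Nat.card F : ℤ) ^ (k + 1 + 2) = a at *
      generalize (Nat.card F : ℤ) = q at *
      have h3 : 2 * (a ^ 2 * q) + 2 * a - a * q - 1 ≤ finrank ℂ Y := by linarith
      nlinarith [mul_le_mul_of_nonneg_left h3 (show 0 ≤ q ^ 2 - 1 by omega),
        mul_nonneg (sq_nonneg a) a6, mul_nonneg (show 0 ≤ a by omega) a4]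
    obtain ⟨m, μ, y, m1, m2, m3, m4, m5⟩ := h.descend hZ hY (by have := hM.1; omega) hef c0 H1 H2 H3
    have h2 := ih k (by omega) hM' hZ1 (h.inv_fix hY) m1 m2 m3 m4 m5
    zify at h1
    rw [a7] at h1
    rw [pow_succ _ (k + 1 + 3), pow_succ _ (k + 1 + 2)] at *
    rw [show k + 3 = k + 1 + 2 by ring] at h2
    generalize (Nat.card F : ℤ) ^ (k + 1 + 2) = a at *
    generalize (Nat.card F : ℤ) = q at *
    nlinarith [mul_le_mul_of_nonneg_left h1 (show 0 ≤ q ^ 2 - 1 by omega),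
      mul_nonneg (show 0 ≤ a by omega) a6, mul_nonneg (show 0 ≤ a by omega) (show 0 ≤ q by omega)]
  · have h1 := h.count hZ hef H
    zify at h1
    rw [pow_succ _ (k + 3), pow_succ _ (k + 2)]
    generalize (Nat.card F : ℤ) ^ (k + 2) = a at *
    generalize (Nat.card F : ℤ) = q at *
    have h3 : 2 * (a ^ 2 * q + a - a * q - 1) ≤ finrank ℂ Y := by omega
    have b1 : 0 ≤ (q ^ 3 - 2 * q) * a - q ^ 3 - 2 + 2 * q ^ 2 + q - 2 := by
      nlinarith [mul_nonneg (show 0 ≤ a - 4 by omega) (show 0 ≤ q ^ 3 - 2 * q by omega)]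
    nlinarith [mul_le_mul_of_nonneg_left h3 (show 0 ≤ q ^ 2 - 1 by omega),
      mul_nonneg (show 0 ≤ a by omega) b1]
  · exact Sit.minus h S (k := k + 2) hM

theorem minus {k : ℕ} (hM : Mn Q ⊥ (k + 3)) (hg : g ∈ OmG Q) (hne : R g ≠ 1) :
    ((Nat.card F : ℤ) ^ (k + 4) + 1) * (Nat.card F ^ (k + 3) - Nat.card F) ≤
      (Nat.card F ^ 2 - 1) * finrank ℂ V := by
  obtain ⟨e, l, x, hl, hl', x0, hx⟩ := h.exists_weight hg hne
  rw [← finrank_top ℂ V]
  exact h.minus_aux hM nd_bot (fun _ _ _ _ => trivial) hl hl' trivial x0 hx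

end ORep

theorem exists_unitary {G : Type*} [Group G] [Finite G] {k : ℕ}
    (ρ : Representation ℂ G (Fin k → ℂ)) : ∃ (V : Type) (_ : NormedAddCommGroup V)
    (_ : InnerProductSpace ℂ V) (_ : FiniteDimensional ℂ V) (τ : G →* End ℂ V), finrank ℂ V = k ∧
      (∀ g, τ g = 1 → ρ g = 1) ∧ ∀ g v w, inner ℂ (τ g v) (τ g w) = inner ℂ v w := by
  have := Fintype.ofFinite G
  have e : ∀ v : Fin k → ℂ, ∑ g, ∑ i, conj (ρ g v i) * ρ g v i = (∑ g, ∑ i, ‖ρ g v i‖ ^ 2 : ℝ) :=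
    fun v => by simp [Complex.conj_mul']
  let c : InnerProductSpace.Core ℂ (Fin k → ℂ) :=
    { inner v w := ∑ g, ∑ i, conj (ρ g v i) * ρ g w i
      conj_inner_symm := by simp [mul_comm]
      re_inner_nonneg v := by rw [e, RCLike.re_to_complex, Complex.ofReal_re]; positivity
      add_left := by simp [add_mul, Finset.sum_add_distrib]
      smul_left := by simp [Finset.mul_sum, mul_assoc]
      definite v h := by
        rw [e, Complex.ofReal_eq_zero, Finset.sum_eq_zero_iff_of_nonneg fun _ _ => by positivity] at h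
        have := (Finset.sum_eq_zero_iff_of_nonneg fun _ _ => by positivity).1 (h 1 (Finset.mem_univ _))
        ext i
        simpa using this i }
  refine ⟨Fin k → ℂ, c.toNormedAddCommGroup, InnerProductSpace.ofCore c.toCore, inferInstance, ρ,
    Module.finrank_fin_fun ℂ, fun _ h => h,
    fun g v w => Fintype.sum_equiv (Equiv.mulRight g) _ _ fun h => ?_⟩
  simp

theorem exists_orep {ι : Type} [Fintype ι] [DecidableEq ι] {Q : QuadraticForm F (ι → F)}
    (hQ : LinearMap.Nondegenerate (polarBilin Q)) (h5 : 5 ≤ finrank F (ι → F)) {k : ℕ}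
    (ρ : Representation ℂ (Cfsg.Omega F Q) (Fin k → ℂ)) (hρ : ρ.IsIrreducible) (hk : 2 ≤ k) :
    ∃ (V : Type) (_ : NormedAddCommGroup V) (_ : InnerProductSpace ℂ V) (_ : FiniteDimensional ℂ V)
      (R : ((ι → F) ≃ₗ[F] (ι → F)) → End ℂ V), finrank ℂ V = k ∧ ORep Q R ∧
        ∃ g ∈ OmG Q, R g ≠ 1 := by
  classical
  let ε : Cfsg.Omega F Q ≃* OmG Q :=
    (omegaEquiv Q).trans (Subgroup.equivMapOfInjective _ _ (Subgroup.subtype_injective _))
  have := finE (F := F) (W := ι → F)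
  have : Finite (Cfsg.Omega F Q) := Finite.of_equiv _ ε.symm.toEquiv
  obtain ⟨V, i1, i2, i3, τ, h1, h2, h3⟩ := exists_unitary ρ
  obtain ⟨g, hg⟩ := exists_ne_one_of_irr ρ hρ (by simpa using hk)
  refine ⟨V, i1, i2, i3, fun g => if h : g ∈ OmG Q then τ (ε.symm ⟨g, h⟩) else 1, h1,
    ⟨hQ, h5, ?_, fun a ha b hb => ?_, fun a ha v w => ?_⟩, ε g, (ε g).2, fun e => hg (h2 g ?_)⟩
  · rw [dif_pos (one_mem _)]
    exact (congrArg τ (map_one ε.symm)).trans (map_one τ)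
  · rw [dif_pos (mul_mem ha hb), dif_pos ha, dif_pos hb, ← map_mul, ← map_mul]; rfl
  · rw [dif_pos ha, h3]
  · simpa using e

theorem div_le {a q k : ℕ} (hq : 1 ≤ q) (h : (a : ℤ) ≤ (q ^ 2 - 1) * k) : a / (q ^ 2 - 1) ≤ k :=
  Nat.div_le_of_le_mul (by zify [Nat.one_le_pow 2 q hq]; exact h)

end CF.OmDeg
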